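import Cfsg.Agent.Lib.Helper39.NormalCtl3
import Cfsg.Agent.Lib.Helper39.LocFree2
import Cfsg.Agent.Lib.Helper39.WellPlaced

set_option autoImplicit false

namespace Cfsg.Agent.Lib.Helper39

open Cfsg Cfsg.Agent.Lib.Helper40

universe u

open Cfsg.Agent.Lib.Helper57.FC in
/-- lifting control of strong fusion by the K-infinity subgroup of `S / Z`, `Z` central. -/
theorem ctl_central_quot {X : Type u} [Group X] [Finite X] {p : ℕ} [Fact p.Prime] (hp : p ≠ 2)
    (hLF : LF p X) (S : Sylow p X) (Z : Subgroup X) (hZc : Z ≤ Subgroup.center X)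
    (hZS : Z ≤ (S : Subgroup X)) (hne : ¬ (S : Subgroup X) ≤ Z) :
    ∃ V : Subgroup X, V ≤ (S : Subgroup X) ∧ ¬ V ≤ Z ∧
      ∀ B : Subgroup X, B ≤ (S : Subgroup X) → ∀ g : X, cj g B ≤ (S : Subgroup X) →
        ∃ x ∈ Subgroup.normalizer (V : Set X), ∀ a ∈ B, x * a * x⁻¹ = g * a * g⁻¹ := by
  have hZn : Z.Normal := by
    constructor
    intro z hz g
    have := (Subgroup.mem_center_iff.mp (hZc hz)) g
    have e : g * z * g⁻¹ = z := by rw [this]; group
    rw [e]; exact hz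
  set π := QuotientGroup.mk' Z with hπ
  have hπs : Function.Surjective π := QuotientGroup.mk'_surjective Z
  set Sb : Sylow p (X ⧸ Z) := S.mapSurjective hπs with hSb
  have hSbc : (Sb : Subgroup (X ⧸ Z)) = (S : Subgroup X).map π := Sylow.coe_mapSurjective _ _
  have hLFb : LF p (X ⧸ Z) := hLF.quotient π hπs
  have hctl := hLFb.ctl hp Sb
  set Vb := inducedFunctor kInfLower (Sb : Subgroup (X ⧸ Z)) with hVb
  have hcf : IsConjugacyFunctor p (inducedFunctor (G := X ⧸ Z) kInfLower) :=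
    isConjugacyFunctor_ind (kInfLower_isCharPFunctor p) _
  have hVbS : Vb ≤ (Sb : Subgroup (X ⧸ Z)) := (hcf _ Sb.2).1
  have hSbne : (Sb : Subgroup (X ⧸ Z)) ≠ ⊥ := by
    intro h
    apply hne
    intro s hs
    have h1 : π s ∈ (Sb : Subgroup (X ⧸ Z)) := by rw [hSbc]; exact ⟨s, hs, rfl⟩
    rw [h, Subgroup.mem_bot] at h1
    exact (QuotientGroup.eq_one_iff s).mp h1
  have hVbne : Vb ≠ ⊥ := (hcf _ Sb.2).2.1 hSbne
  have hSbN : (Sb : Subgroup (X ⧸ Z)) ≤ Subgroup.normalizer (Vb : Set (X ⧸ Z)) :=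
    Subgroup.le_normalizer.trans (normalizer_le_normalizer_functor hcf Sb.2)
  have hcomapN : (Subgroup.normalizer (Vb : Set (X ⧸ Z))).comap π ≤
      Subgroup.normalizer ((Vb.comap π : Subgroup X) : Set X) := Subgroup.le_normalizer_comap π
  have hmain : Cfsg.Agent.Lib.Helper57.FC.Ctl {Subgroup.normalizer ((Vb.comap π : Subgroup X) : Set X)} (S : Subgroup X) := by
    apply ctl_of_quotient_p S Z hZS
      (fun y _ => Subgroup.le_centralizer_iff.mp (hZc.trans (Subgroup.center_le_centralizer _))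
        (Subgroup.mem_top y)) {Subgroup.normalizer (Vb : Set (X ⧸ Z))}
    · intro B hB g hgB
      rw [← hSbc] at hB hgB ⊢
      obtain ⟨x, hx, hxa⟩ := hctl B hB g hgB
      refine Gen.ext (Gen.base rfl hx hB ?_) (fun b hb => (hxa b hb).symm)
      rw [conj_eq_of_same_action hxa]; exact hgB
    · intro Hb hHb
      rw [Set.mem_singleton_iff] at hHb
      subst hHb
      exact (ctlIn_of_mem (Set.mem_singleton _)).mono hcomapN
    · refine (ctlIn_of_mem (Set.mem_singleton _)).mono ?_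
      intro s hs
      apply hcomapN
      show π s ∈ Subgroup.normalizer (Vb : Set (X ⧸ Z))
      apply hSbN
      rw [hSbc]; exact ⟨s, hs, rfl⟩
  refine ⟨Vb.comap π, ?_, ?_, fun B hB g hg => (hmain B hB g hg).exists_of_singleton⟩
  · intro x hx
    have h1 : π x ∈ (Sb : Subgroup (X ⧸ Z)) := hVbS hx
    rw [hSbc] at h1
    obtain ⟨s, hs, hsx⟩ := h1
    have h2 : s⁻¹ * x ∈ Z := QuotientGroup.eq.mp hsx
    have e : x = s * (s⁻¹ * x) := by group
    rw [e]
    exact Subgroup.mul_mem _ hs (hZS h2)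
  · intro h
    apply hVbne
    rw [eq_bot_iff]
    intro v hv
    obtain ⟨x, rfl⟩ := hπs v
    rw [Subgroup.mem_bot]
    exact (QuotientGroup.eq_one_iff x).mpr (h hv)

/-- If `Q ⊴ P` is not centric, some subgroup `W ≰ Q` of `P` controls strong fusion in `N_G(Q)`. -/
theorem exists_bigger_ctl {G : Type u} [Group G] [Finite G] {p : ℕ} [Fact p.Prime] (hp : p ≠ 2)
    (hLF : LF p G) (P : Sylow p G) (Q : Subgroup G) (hQP : Q ≤ (P : Subgroup G))
    (hPQ : (P : Subgroup G) ≤ Subgroup.normalizer (Q : Set G))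
    (hnot : ¬ ((P : Subgroup G) ⊓ Subgroup.centralizer (Q : Set G) ≤ Q)) :
    ∃ W : Subgroup G, W ≤ (P : Subgroup G) ∧
      (P : Subgroup G) ≤ Subgroup.normalizer (W : Set G) ∧ ¬ W ≤ Q ∧
      ∀ B : Subgroup G, B ≤ (P : Subgroup G) → ∀ g ∈ Subgroup.normalizer (Q : Set G),
        cj g B ≤ (P : Subgroup G) →
        ∃ x ∈ Subgroup.normalizer (W : Set G), ∀ a ∈ B, x * a * x⁻¹ = g * a * g⁻¹ := by
  set E := Subgroup.normalizer (Q : Set G) with hE
  set C := Subgroup.centralizer (Q : Set G) with hC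
  have hCE : C ≤ E := Subgroup.centralizer_le_normalizer _
  have hEC : E ≤ Subgroup.normalizer (C : Set G) := normalizer_le_normalizer_centralizer Q
  have hQE : Q ≤ E := Subgroup.le_normalizer
  have hPidx : ¬ p ∣ (P : Subgroup G).relIndex E := sylow_relIndex_of_le P hPQ
  have hDidx : ¬ p ∣ ((P : Subgroup G) ⊓ C).relIndex C := inf_normal_sylow hPQ P.2 hPidx hCE hEC
  have hDp : IsPGroup p (((P : Subgroup G) ⊓ C).subgroupOf C) :=
    (P.2.to_le inf_le_left).comap_subtype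
  let SC : Sylow p ↥C := hDp.toSylow hDidx
  have hSC : ∀ x : ↥C, x ∈ (SC : Subgroup ↥C) ↔ (x : G) ∈ (P : Subgroup G) ⊓ C := fun x => Iff.rfl
  set Z : Subgroup ↥C := (Q ⊓ C).subgroupOf C with hZ
  have hcomm : ∀ q ∈ Q, ∀ c ∈ C, q * c = c * q := by
    intro q hq c hc
    exact (Subgroup.mem_centralizer_iff.mp hc) q hq
  have hZc : Z ≤ Subgroup.center ↥C := by
    intro z hz
    rw [Subgroup.mem_center_iff]
    intro g
    apply Subtype.ext
    exact (hcomm z.1 hz.1 g.1 g.2).symm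
  have hZS : Z ≤ (SC : Subgroup ↥C) := by
    intro z hz
    exact (hSC z).mpr ⟨hQP hz.1, hz.2⟩
  have hne : ¬ (SC : Subgroup ↥C) ≤ Z := by
    intro h
    apply hnot
    intro x hx
    exact (h ((hSC ⟨x, hx.2⟩).mpr hx)).1
  obtain ⟨VC, hVS, hVZ, hVctl⟩ := ctl_central_quot hp (hLF.subgroup C) SC Z hZc hZS hne
  set V0 := VC.map C.subtype with hV0
  have hV0D : V0 ≤ (P : Subgroup G) ⊓ C := by
    rintro _ ⟨v, hv, rfl⟩
    exact (hSC v).mp (hVS hv)
  have hV0Q : ¬ V0 ≤ Q := by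
    intro h
    apply hVZ
    intro v hv
    exact ⟨h ⟨v, hv, rfl⟩, v.2⟩
  set N := Q ⊔ C with hN
  have hNE : N ≤ E := sup_le hQE hCE
  have hEN : E ≤ Subgroup.normalizer (N : Set G) := by
    intro x hx
    rw [mem_normalizer_iff_cj, hN, cj_sup, cj_eq_of_mem_normalizer hx,
      cj_eq_of_mem_normalizer (hEC hx)]
  have hV0T : V0 ≤ (P : Subgroup G) ⊓ N := hV0D.trans (inf_le_inf_left _ le_sup_right)
  have hctl : Ctl N ((P : Subgroup G) ⊓ N) V0 := by
    intro A hA n hn hnA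
    obtain ⟨q, hq, c, hc, rfl⟩ := mem_sup_of_le_normalizer (hQE.trans hEC) hn
    set A2 := (A ⊔ Q) ⊓ C with hA2
    have hAQP : A ⊔ Q ≤ (P : Subgroup G) := sup_le (hA.trans inf_le_left) hQP
    have hcA : cj c A ≤ (P : Subgroup G) := by
      have h1 : cj c A = cj q⁻¹ (cj (q * c) A) := by rw [← cj_mul]; congr 1; group
      rw [h1]
      have h2 := cj_mono q⁻¹ (hnA.trans inf_le_left)
      rwa [cj_self_of_mem (Subgroup.inv_mem _ (hQP hq))] at h2
    have hcQ : cj c Q = Q := cj_eq_of_mem_normalizer (hCE hc)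
    have hcA2 : cj c A2 ≤ (P : Subgroup G) ⊓ C := by
      rw [hA2, cj_inf, cj_sup, hcQ, cj_self_of_mem hc]
      exact inf_le_inf_right _ (sup_le hcA hQP)
    have hB : A2.subgroupOf C ≤ (SC : Subgroup ↥C) := by
      intro x hx
      exact (hSC x).mpr ⟨hAQP hx.1, x.2⟩
    have hgB : cj (⟨c, hc⟩ : ↥C) (A2.subgroupOf C) ≤ (SC : Subgroup ↥C) := by
      rintro _ ⟨b, hb, rfl⟩
      rw [hSC]
      have : (((MulAut.conj (⟨c, hc⟩ : ↥C)).toMonoidHom b : ↥C) : G) = c * b.1 * c⁻¹ := by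
        simp [MulAut.conj_apply]
      rw [this]
      exact hcA2 (conj_mem_cj hb)
    obtain ⟨x, hx, hxa⟩ := hVctl _ hB ⟨c, hc⟩ hgB
    have hxN : x.1 ∈ Subgroup.normalizer (V0 : Set G) :=
      Subgroup.le_normalizer_map C.subtype ⟨x, hx, rfl⟩
    have hqN : q ∈ Subgroup.normalizer (V0 : Set G) := by
      apply Subgroup.centralizer_le_normalizer
      rw [Subgroup.mem_centralizer_iff]
      intro v hv
      exact (hcomm q hq v (hV0D hv).2).symm
    refine ⟨q * x.1, ⟨N.mul_mem ((le_sup_left : Q ≤ N) hq) ((le_sup_right : C ≤ N) x.2),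
      Subgroup.mul_mem _ hqN hxN⟩, x.1⁻¹ * c,
      ⟨(le_sup_right : C ≤ N) (C.mul_mem (C.inv_mem x.2) hc), ?_⟩, by group⟩
    show x.1⁻¹ * c ∈ Subgroup.centralizer (A : Set G)
    rw [Subgroup.mem_centralizer_iff]
    intro a ha
    obtain ⟨q', hq', c', hc', e⟩ := mem_sup_of_le_normalizer (hQE.trans hEC) (hA ha).2
    have hc'A2 : c' ∈ A2 := by
      refine ⟨?_, hc'⟩
      have : c' = q'⁻¹ * a := by rw [e]; group
      rw [this]
      exact Subgroup.mul_mem _ (Subgroup.inv_mem _ ((le_sup_right : Q ≤ A ⊔ Q) hq'))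
        ((le_sup_left : A ≤ A ⊔ Q) ha)
    have h1 := congrArg Subtype.val (hxa ⟨c', hc'⟩ hc'A2)
    simp only [Subgroup.coe_mul, InvMemClass.coe_inv] at h1
    have h2 : q' * (x.1⁻¹ * c) = (x.1⁻¹ * c) * q' := hcomm q' hq' _ (C.mul_mem (C.inv_mem x.2) hc)
    have h3 : c' * (x.1⁻¹ * c) = (x.1⁻¹ * c) * c' := by
      calc c' * (x.1⁻¹ * c) = x.1⁻¹ * (x.1 * c' * x.1⁻¹) * c := by group
        _ = x.1⁻¹ * (c * c' * c⁻¹) * c := by rw [h1]
        _ = (x.1⁻¹ * c) * c' := by group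
    rw [e, mul_assoc, h3, ← mul_assoc, h2, mul_assoc]
  obtain ⟨W, hVW, hWT, hNT, hW⟩ := Ctl.closure_rel hEN hV0T hctl
  have hglob := Ctl.global_rel hPQ P.2 hPidx hNE hEN hWT hNT hW
  refine ⟨W, hWT.trans inf_le_left, ?_, fun h => hV0Q (hVW.trans h), fun B hB g hg hgB => ?_⟩
  · exact (le_inf hPQ (le_normalizer_inf Subgroup.le_normalizer (hPQ.trans hEN))).trans hNT
  · obtain ⟨x, hx, hxa⟩ := hglob B hB g hg hgB
    exact ⟨x, hx.2, hxa⟩

end Cfsg.Agent.Lib.Helper39
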