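import Cfsg.Agent.Lib.Helper39.CentricRad

set_option autoImplicit false

namespace Cfsg.Agent.Lib.Helper39

open Cfsg

universe u

variable {G : Type u} [Group G]

theorem relIndex_eq_pow_of_pmod [Finite G] {p : ℕ} [hp : Fact p.Prime] {Γ C : Subgroup G}
    (hC : C ≤ Γ) (hn : Γ ≤ Subgroup.normalizer (C : Set G))
    (hpm : ∀ γ ∈ Γ, ∃ k : ℕ, γ ^ (p ^ k) ∈ C) : ∃ n : ℕ, C.relIndex Γ = p ^ n := by
  have hnorm : (C.subgroupOf Γ).Normal := (Subgroup.normal_subgroupOf_iff_le_normalizer hC).mpr hn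
  have hpg : IsPGroup p (Γ ⧸ C.subgroupOf Γ) := by
    intro q
    obtain ⟨γ, rfl⟩ := QuotientGroup.mk_surjective q
    obtain ⟨k, hk⟩ := hpm γ γ.2
    refine ⟨k, ?_⟩
    rw [← QuotientGroup.mk_pow, QuotientGroup.eq_one_iff]
    exact hk
  obtain ⟨n, hn'⟩ := IsPGroup.iff_card.mp hpg
  exact ⟨n, hn'⟩

theorem pow_relIndex_mem' {Γ C : Subgroup G} (hC : C ≤ Γ)
    (hn : Γ ≤ Subgroup.normalizer (C : Set G)) {γ : G} (hγ : γ ∈ Γ) :
    γ ^ (C.relIndex Γ) ∈ C := by
  have hnorm : (C.subgroupOf Γ).Normal := (Subgroup.normal_subgroupOf_iff_le_normalizer hC).mpr hn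
  exact Subgroup.pow_index_mem (C.subgroupOf Γ) ⟨γ, hγ⟩

/-- `L` controls strong fusion in `P` (action form) -/
def SAct (P L : Subgroup G) : Prop :=
  ∀ B : Subgroup G, B ≤ P → ∀ g : G, cj g B ≤ P → ∃ x ∈ L, ∀ a ∈ B, x * a * x⁻¹ = g * a * g⁻¹

/-- `Q ⊴ P` and `N(Q)` controls strong fusion in `P` -/
def SGood (P Q : Subgroup G) : Prop :=
  Q ≤ P ∧ P ≤ Subgroup.normalizer (Q : Set G) ∧ SAct P (Subgroup.normalizer (Q : Set G))

theorem SGood.bot (P : Subgroup G) : SGood P ⊥ := by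
  have h : ∀ x : G, x ∈ Subgroup.normalizer ((⊥ : Subgroup G) : Set G) := by
    intro x
    rw [mem_normalizer_iff_cj]
    exact Subgroup.map_bot _
  exact ⟨bot_le, fun x _ => h x, fun B _ g _ => ⟨g, h g, fun _ _ => rfl⟩⟩

theorem SGood.sup {P Q1 Q2 : Subgroup G} (h1 : SGood P Q1) (h2 : SGood P Q2) :
    SGood P (Q1 ⊔ Q2) := by
  refine ⟨sup_le h1.1 h2.1, ?_, ?_⟩
  · intro x hx
    rw [mem_normalizer_iff_cj, cj_sup, cj_eq_of_mem_normalizer (h1.2.1 hx),
      cj_eq_of_mem_normalizer (h2.2.1 hx)]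
  · intro B hB g hg
    obtain ⟨x1, hx1, hxa1⟩ := h1.2.2 B hB g hg
    have hc : cj x1 (B ⊔ Q1) ≤ P := by
      rw [cj_sup, cj_eq_of_mem_normalizer hx1, conj_eq_of_same_action hxa1]
      exact sup_le hg h1.1
    obtain ⟨x2, hx2, hxa2⟩ := h2.2.2 (B ⊔ Q1) (sup_le hB h1.1) x1 hc
    refine ⟨x2, ?_, fun a ha => ?_⟩
    · rw [mem_normalizer_iff_cj, cj_sup, cj_eq_of_mem_normalizer hx2]
      have : cj x2 Q1 = cj x1 Q1 :=
        conj_eq_of_same_action (fun a ha => hxa2 a (le_sup_right (a := B) ha))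
      rw [this, cj_eq_of_mem_normalizer hx1]
    · rw [hxa2 a (le_sup_left (a := B) ha), hxa1 a ha]

theorem SAct.trans {P E L : Subgroup G} (h : SAct P E)
    (h2 : ∀ B : Subgroup G, B ≤ P → ∀ g ∈ E, cj g B ≤ P →
      ∃ x ∈ L, ∀ a ∈ B, x * a * x⁻¹ = g * a * g⁻¹) : SAct P L := by
  intro B hB g hg
  obtain ⟨x1, hx1, hxa1⟩ := h B hB g hg
  obtain ⟨x2, hx2, hxa2⟩ := h2 B hB x1 hx1 (by rw [conj_eq_of_same_action hxa1]; exact hg)
  exact ⟨x2, hx2, fun a ha => by rw [hxa2 a ha, hxa1 a ha]⟩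

theorem exists_max_sgood [Finite G] (P : Subgroup G) :
    ∃ Q : Subgroup G, SGood P Q ∧ ∀ R : Subgroup G, SGood P R → R ≤ Q := by
  obtain ⟨Q, hQ, hmax⟩ := (Set.toFinite {Q : Subgroup G | SGood P Q}).exists_maximal
    ⟨⊥, SGood.bot P⟩
  refine ⟨Q, hQ, fun R hR => ?_⟩
  have h1 : Q ⊔ R ∈ {Q : Subgroup G | SGood P Q} := SGood.sup hQ hR
  exact le_sup_right.trans (hmax h1 le_sup_left)

/-- the largest good subgroup is centric -/
theorem SGood.centric [Finite G] {p : ℕ} [Fact p.Prime] (hp : p ≠ 2) (hLF : LF p G)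
    (P : Sylow p G) {Q : Subgroup G} (hQ : SGood (P : Subgroup G) Q)
    (hmax : ∀ R : Subgroup G, SGood (P : Subgroup G) R → R ≤ Q) :
    (P : Subgroup G) ⊓ Subgroup.centralizer (Q : Set G) ≤ Q := by
  by_contra hnot
  obtain ⟨W, hWP, hPW, hWQ, hctl⟩ := exists_bigger_ctl hp hLF P Q hQ.1 hQ.2.1 hnot
  exact hWQ (hmax W ⟨hWP, hPW, hQ.2.2.trans hctl⟩)

/-- the largest good subgroup is radical -/
theorem SGood.radical [Finite G] {p : ℕ} [hpp : Fact p.Prime]
    (P : Sylow p G) {Q : Subgroup G} (hQ : SGood (P : Subgroup G) Q)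
    (hmax : ∀ R : Subgroup G, SGood (P : Subgroup G) R → R ≤ Q)
    (hcen : (P : Subgroup G) ⊓ Subgroup.centralizer (Q : Set G) ≤ Q)
    (X : Subgroup G) (hXE : X ≤ Subgroup.normalizer (Q : Set G))
    (hEX : Subgroup.normalizer (Q : Set G) ≤ Subgroup.normalizer (X : Set G))
    (hle : Q ⊔ Subgroup.centralizer (Q : Set G) ≤ X)
    (hidx : ∃ k : ℕ, (Q ⊔ Subgroup.centralizer (Q : Set G)).relIndex X = p ^ k) :
    X = Q ⊔ Subgroup.centralizer (Q : Set G) := by
  obtain ⟨hQP, hPQ, hact⟩ := hQ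
  set E := Subgroup.normalizer (Q : Set G) with hE
  set C := Subgroup.centralizer (Q : Set G) with hC
  have hCE : C ≤ E := Subgroup.centralizer_le_normalizer _
  have hEC : E ≤ Subgroup.normalizer (C : Set G) := normalizer_le_normalizer_centralizer Q
  have hQE : Q ≤ E := Subgroup.le_normalizer
  have hPidx : ¬ p ∣ (P : Subgroup G).relIndex E := sylow_relIndex_of_le P hPQ
  have hEN : E ≤ Subgroup.normalizer ((Q ⊔ C : Subgroup G) : Set G) := by
    intro x hx
    rw [mem_normalizer_iff_cj, cj_sup, cj_eq_of_mem_normalizer hx,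
      cj_eq_of_mem_normalizer (hEC hx)]
  have hcomm : ∀ q ∈ Q, ∀ c ∈ C, q * c = c * q := by
    intro q hq c hc
    exact (Subgroup.mem_centralizer_iff.mp hc) q hq
  obtain ⟨k, hk⟩ := hidx
  set R := (P : Subgroup G) ⊓ X with hR
  have hPR : (P : Subgroup G) ≤ Subgroup.normalizer (R : Set G) :=
    le_normalizer_inf Subgroup.le_normalizer (hPQ.trans hEX)
  have hRgood : SGood (P : Subgroup G) R := by
    refine ⟨inf_le_left, hPR, hact.trans ?_⟩
    apply alperin_for_subgroup_rel hPQ P.2 hPidx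
    intro A hAP hAidx IH y hy
    have hyA : y ∈ Subgroup.normalizer (A : Set G) := hy.2
    by_cases hRA : R ≤ A
    · refine ⟨y, ?_, fun a _ => rfl⟩
      rw [mem_normalizer_iff_cj]
      apply cj_eq_of_le
      refine le_inf ((cj_mono y hRA).trans ?_) ?_
      · rw [cj_eq_of_mem_normalizer hyA]; exact hAP
      · have := cj_mono y (inf_le_right : R ≤ X)
        rwa [cj_eq_of_mem_normalizer (hEX hy.1)] at this
    have hPM : ∀ γ ∈ X ⊓ Subgroup.normalizer (A : Set G),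
        ∃ k : ℕ, γ ^ (p ^ k) ∈ Subgroup.centralizer (A : Set G) := by
      intro γ hγ
      have hγA : γ ∈ Subgroup.normalizer (A : Set G) := hγ.2
      have h1 : γ ^ (p ^ k) ∈ Q ⊔ C := by
        rw [← hk]; exact pow_relIndex_mem' hle (hXE.trans hEN) hγ.1
      obtain ⟨q, hq, c, hc, e⟩ := mem_sup_of_le_normalizer (hQE.trans hEC) h1
      obtain ⟨m, hm⟩ := (P.2.to_le hQP) ⟨q, hq⟩
      have hm' : q ^ p ^ m = 1 := by
        have := congrArg Subtype.val hm
        simpa using this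
      have h2 : (γ ^ (p ^ k)) ^ (p ^ m) = c ^ (p ^ m) := by
        rw [e, (show Commute q c from hcomm q hq c hc).mul_pow, hm', one_mul]
      have h3 : (γ ^ (p ^ k)) ^ (p ^ m) ∈ C ⊓ Subgroup.normalizer (A : Set G) :=
        ⟨by rw [h2]; exact C.pow_mem hc _,
          Subgroup.pow_mem _ (Subgroup.pow_mem _ hγA _) _⟩
      obtain ⟨k2, hk2⟩ := pmod_of_stab (p := p) (A := A) (B0 := Q ⊓ C)
        (K := C ⊓ Subgroup.normalizer (A : Set G)) (P.2.to_le (inf_le_left.trans hQP))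
        (by
          intro z hz a ha
          have hzA : z ∈ Subgroup.normalizer (A : Set G) := hz.2
          have h4 : z * a * z⁻¹ * a⁻¹ ∈ A := by
            refine A.mul_mem ?_ (A.inv_mem ha)
            have := conj_mem_cj (g := z) ha
            rwa [cj_eq_of_mem_normalizer hzA] at this
          have h5 : z * a * z⁻¹ * a⁻¹ ∈ C := by
            have e3 : z * a * z⁻¹ * a⁻¹ = z * (a * z⁻¹ * a⁻¹) := by group
            rw [e3]
            refine C.mul_mem hz.1 ?_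
            have := conj_mem_cj (g := a) (C.inv_mem hz.1)
            rwa [cj_eq_of_mem_normalizer (hEC (hPQ (hAP ha)))] at this
          exact ⟨hcen ⟨hAP h4, h5⟩, h5⟩)
        (by
          intro z hz
          exact Subgroup.centralizer_le (show ((Q ⊓ C : Subgroup G) : Set G) ⊆ (Q : Set G) from
            fun x hx => hx.1) hz.1) _ h3
      refine ⟨k + m + k2, ?_⟩
      rw [pow_add, pow_mul, pow_add, pow_mul]
      exact hk2
    obtain ⟨w, hw, hwA⟩ := exists_mem_normalizer_not_mem (p := p) (A := A) (W := R)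
      (P.2.to_le (sup_le hAP inf_le_left)) (hAP.trans hPR) hRA
    have hwN : w ∈ Subgroup.normalizer (A : Set G) := hw.2
    exact ext_step (Γ := X ⊓ Subgroup.normalizer (A : Set G)) P.2 hAP inf_le_right inf_le_left
      (inf_le_inf_right _ hPQ) hAidx (inf_le_inf_right _ hXE)
      (le_normalizer_inf (inf_le_left.trans hEX) (inf_le_right.trans Subgroup.le_normalizer)) hPM
      ⟨w, ⟨⟨hw.1.1, hwN⟩, ⟨hw.1.2, hwN⟩⟩, hwA⟩
      (fun B' hB' hc g hg hgB => IH B' hB' hc g hg.1 hgB) y hy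
  have hRQ : R = Q := le_antisymm (hmax R hRgood) (le_inf hQP (le_sup_left.trans hle))
  have h1 : ¬ p ∣ R.relIndex X := inf_normal_sylow hPQ P.2 hPidx hXE hEX
  rw [hRQ, ← Subgroup.relIndex_mul_relIndex Q (Q ⊔ C) X le_sup_left hle, hk] at h1
  have hk0 : k = 0 := by
    by_contra h0
    exact h1 (Dvd.dvd.mul_left (dvd_pow_self p h0) _)
  rw [hk0, pow_zero, Subgroup.relIndex_eq_one] at hk
  exact le_antisymm hk hle

/-- a good subgroup lies in every centric radical subgroup -/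
theorem SGood.le_of_cr [Finite G] {p : ℕ} [Fact p.Prime] (P : Sylow p G) {Q R : Subgroup G}
    (hQ : SGood (P : Subgroup G) Q) (hRP : R ≤ (P : Subgroup G))
    (hcen : (P : Subgroup G) ⊓ Subgroup.centralizer (R : Set G) ≤ R)
    (hrad : ∀ X : Subgroup G, X ≤ Subgroup.normalizer (R : Set G) →
        (∀ n ∈ Subgroup.normalizer (R : Set G), cj n X = X) →
        R ⊔ Subgroup.centralizer (R : Set G) ≤ X →
        (∃ k : ℕ, (R ⊔ Subgroup.centralizer (R : Set G)).relIndex X = p ^ k) →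
        X = R ⊔ Subgroup.centralizer (R : Set G)) : Q ≤ R := by
  obtain ⟨hQP, hPQ, hact⟩ := hQ
  set E := Subgroup.normalizer (R : Set G) with hE
  set C := Subgroup.centralizer (R : Set G) with hC
  have hCE : C ≤ E := Subgroup.centralizer_le_normalizer _
  have hEC : E ≤ Subgroup.normalizer (C : Set G) := normalizer_le_normalizer_centralizer R
  have hRE : R ≤ E := Subgroup.le_normalizer
  have hEM : E ≤ Subgroup.normalizer ((R ⊔ C : Subgroup G) : Set G) := by
    intro x hx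
    rw [mem_normalizer_iff_cj, cj_sup, cj_eq_of_mem_normalizer hx,
      cj_eq_of_mem_normalizer (hEC hx)]
  set D := Q ⊓ E with hD
  set X := D ⊔ (R ⊔ C) with hX
  have hXE : X ≤ E := sup_le inf_le_right (sup_le hRE hCE)
  have hinv : ∀ n ∈ E, cj n X = X := by
    intro n hn
    obtain ⟨h, hh, hha⟩ := hact R hRP n (by rw [cj_eq_of_mem_normalizer hn]; exact hRP)
    have hhR : h ∈ E := by
      rw [hE, mem_normalizer_iff_cj, conj_eq_of_same_action hha, cj_eq_of_mem_normalizer hn]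
    have hc : h⁻¹ * n ∈ C := by
      rw [hC, Subgroup.mem_centralizer_iff]
      intro a ha
      have h1 := hha a ha
      calc a * (h⁻¹ * n) = h⁻¹ * (h * a * h⁻¹) * n := by group
        _ = h⁻¹ * (n * a * n⁻¹) * n := by rw [h1]
        _ = h⁻¹ * n * a := by group
    have hcX : h⁻¹ * n ∈ X := (le_sup_right : R ⊔ C ≤ X) ((le_sup_right : C ≤ R ⊔ C) hc)
    have e : n = h * (h⁻¹ * n) := by group
    rw [e, cj_mul, cj_self_of_mem hcX, hX, cj_sup, cj_eq_of_mem_normalizer (hEM hhR), hD, cj_inf,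
      cj_eq_of_mem_normalizer hh, hE, cj_normalizer, cj_eq_of_mem_normalizer hhR]
  have hpm : ∀ γ ∈ X, ∃ k : ℕ, γ ^ (p ^ k) ∈ R ⊔ C := by
    intro γ hγ
    obtain ⟨d, hd, m, hm, e⟩ := mem_sup_of_le_normalizer (inf_le_right.trans hEM) hγ
    obtain ⟨k, hk⟩ := (P.2.to_le (inf_le_left.trans hQP)) ⟨d, hd⟩
    have hk' : d ^ p ^ k = 1 := by
      have := congrArg Subtype.val hk
      simpa using this
    obtain ⟨b', hb', e2⟩ := pow_mul_mem (hEM hd.2) hm (p ^ k)
    refine ⟨k, ?_⟩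
    rw [e, e2, hk', one_mul]; exact hb'
  have hXeq := hrad X hXE hinv le_sup_right
    (relIndex_eq_pow_of_pmod le_sup_right (hXE.trans hEM) hpm)
  have hDR : D ≤ R := by
    intro d hd
    have h1 : d ∈ R ⊔ C := by rw [← hXeq]; exact (le_sup_left : D ≤ X) hd
    obtain ⟨r, hr, c, hc, e⟩ := mem_sup_of_le_normalizer (hRE.trans hEC) h1
    have hcP : c ∈ (P : Subgroup G) := by
      have : c = r⁻¹ * d := by rw [e]; group
      rw [this]
      exact Subgroup.mul_mem _ (Subgroup.inv_mem _ (hRP hr)) (hQP hd.1)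
    rw [e]; exact R.mul_mem hr (hcen ⟨hcP, hc⟩)
  by_contra hQR
  obtain ⟨w, hw, hwR⟩ := exists_mem_normalizer_not_mem (p := p) (A := R) (W := Q)
    (P.2.to_le (sup_le hRP hQP)) (hRP.trans hPQ) hQR
  exact hwR (hDR hw)

/-- if `Q ⊴ P` is centric then `Z(Q)` is a Sylow subgroup of `C(Q)` -/
theorem exists_sylow_centralizer [Finite G] {p : ℕ} [Fact p.Prime] (P : Sylow p G)
    {Q : Subgroup G} (hQP : Q ≤ (P : Subgroup G))
    (hPQ : (P : Subgroup G) ≤ Subgroup.normalizer (Q : Set G))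
    (hcen : (P : Subgroup G) ⊓ Subgroup.centralizer (Q : Set G) ≤ Q) :
    ∃ R : Sylow p ↥(Subgroup.centralizer (Q : Set G)),
      (R : Subgroup ↥(Subgroup.centralizer (Q : Set G))).map
        (Subgroup.centralizer (Q : Set G)).subtype = Q ⊓ Subgroup.centralizer (Q : Set G) := by
  have hPidx : ¬ p ∣ (P : Subgroup G).relIndex (Subgroup.normalizer (Q : Set G)) :=
    sylow_relIndex_of_le P hPQ
  have hDidx : ¬ p ∣ ((P : Subgroup G) ⊓ Subgroup.centralizer (Q : Set G)).relIndex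
      (Subgroup.centralizer (Q : Set G)) :=
    inf_normal_sylow hPQ P.2 hPidx (Subgroup.centralizer_le_normalizer _)
      (normalizer_le_normalizer_centralizer Q)
  have hDp : IsPGroup p (((P : Subgroup G) ⊓ Subgroup.centralizer (Q : Set G)).subgroupOf
      (Subgroup.centralizer (Q : Set G))) := (P.2.to_le inf_le_left).comap_subtype
  refine ⟨hDp.toSylow hDidx, ?_⟩
  apply le_antisymm
  · rintro _ ⟨x, hx, rfl⟩
    have hx' : (x : G) ∈ (P : Subgroup G) ⊓ Subgroup.centralizer (Q : Set G) := hx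
    exact ⟨hcen hx', x.2⟩
  · intro x hx
    exact ⟨⟨x, hx.2⟩, (show (x : G) ∈ (P : Subgroup G) ⊓ Subgroup.centralizer (Q : Set G) from
      ⟨hQP hx.1, hx.2⟩), rfl⟩

/-- if `Z(R)` is a Sylow subgroup of `C(R)` then `C_P(R) ≤ R` -/
theorem centric_of_sylow_centralizer [Finite G] {p : ℕ} [Fact p.Prime] (P : Sylow p G)
    {R : Subgroup G} (hRP : R ≤ (P : Subgroup G))
    (S : Sylow p ↥(Subgroup.centralizer (R : Set G)))
    (hS : (S : Subgroup ↥(Subgroup.centralizer (R : Set G))).map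
        (Subgroup.centralizer (R : Set G)).subtype = R ⊓ Subgroup.centralizer (R : Set G)) :
    (P : Subgroup G) ⊓ Subgroup.centralizer (R : Set G) ≤ R := by
  have hDp : IsPGroup p (((P : Subgroup G) ⊓ Subgroup.centralizer (R : Set G)).subgroupOf
      (Subgroup.centralizer (R : Set G))) := (P.2.to_le inf_le_left).comap_subtype
  have hle : (S : Subgroup ↥(Subgroup.centralizer (R : Set G))) ≤
      ((P : Subgroup G) ⊓ Subgroup.centralizer (R : Set G)).subgroupOf
      (Subgroup.centralizer (R : Set G)) := by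
    intro x hx
    have h1 : (x : G) ∈ R ⊓ Subgroup.centralizer (R : Set G) := by
      rw [← hS]; exact ⟨x, hx, rfl⟩
    exact ⟨hRP h1.1, h1.2⟩
  have heq := S.is_maximal' hDp hle
  intro x hx
  have h2 : (⟨x, hx.2⟩ : ↥(Subgroup.centralizer (R : Set G))) ∈
      (S : Subgroup ↥(Subgroup.centralizer (R : Set G))) := by
    rw [← heq]; exact hx
  have h3 : x ∈ R ⊓ Subgroup.centralizer (R : Set G) := by
    rw [← hS]; exact ⟨_, h2, rfl⟩
  exact h3.1

end Cfsg.Agent.Lib.Helper39
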