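import Cfsg.Agent.Lib.Helper39.FusionTransferCore
import Cfsg.Agent.Lib.Helper87.FusionGroup
import Cfsg.Agent.S5076

/-!
# The transfer core for finite groups
-/

set_option autoImplicit false

namespace Cfsg.Agent.Lib.Helper39

open Cfsg Cfsg.FusionSystem Cfsg.Agent.Lib.Helper87 Cfsg.Agent.Lib.Helper40
open scoped commutatorElement

universe u

theorem group_focal_eq {G : Type u} [Group G] [Finite G] {p : ℕ} [Fact p.Prime] (S : Sylow p G) :
    (groupFusionSystem (S : Subgroup G)).focalSubgroup = (S : Subgroup G) ⊓ commutator G := by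
  apply le_antisymm
  · rw [FT.focal_le_iff]
    intro P f hf x hx
    obtain ⟨hP, g, hg⟩ := (mor_group_iff _ _ _).1 hf
    rw [(hg x hx).1]
    refine ⟨(S : Subgroup G).mul_mem ((S : Subgroup G).inv_mem (hP hx)) (hg x hx).2, ?_⟩
    have e : x⁻¹ * (g * x * g⁻¹) = ⁅x⁻¹, g⁆ := by
      rw [commutatorElement_def]; group
    rw [e, commutator_def]
    exact Subgroup.commutator_mem_commutator (Subgroup.mem_top _) (Subgroup.mem_top _)
  · rw [commutator_def]
    apply FT.rel_focal S ⊤ le_top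
    intro x hx u _ hu
    have h1 : Mor (groupFusionSystem (S : Subgroup G)) (Subgroup.zpowers x)
        (fun y => u * y * u⁻¹) := by
      rw [mor_group_iff]
      refine ⟨by rw [Subgroup.zpowers_le]; exact hx, u, ?_⟩
      rintro _ ⟨n, rfl⟩
      refine ⟨rfl, ?_⟩
      show u * x ^ n * u⁻¹ ∈ _
      rw [← conj_zpow]
      exact (S : Subgroup G).zpow_mem hu n
    have h2 := FT.mem_focal h1 (x := x⁻¹) ((Subgroup.zpowers x).inv_mem (Subgroup.mem_zpowers x))
    have e : ⁅x, u⁆ = x⁻¹⁻¹ * (u * x⁻¹ * u⁻¹) := by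
      rw [commutatorElement_def]; group
    rw [e]
    exact h2

theorem group_transfer_core {G : Type u} [Group G] [Finite G] {p : ℕ} [Fact p.Prime]
    (S : Sylow p G) (H : Subgroup G) (hSH : (S : Subgroup G) ≤ H)
    (hgb : ∀ (Q : Subgroup ↥(S : Subgroup G)) (g : G),
      (∀ r ∈ Q, g * (r : G) * g⁻¹ ∈ (S : Subgroup G)) →
      (∀ r ∈ Q, (r : G)⁻¹ * (g * (r : G) * g⁻¹) ∈ ⁅H, H⁆) ∨
      (Q ≠ ⊤ ∧ ∀ (A : Type u) [CommGroup A] [Finite A] (ϕ : Q →* A), (∀ a : A, a ^ p = 1) →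
        ∀ x : ↥(S : Subgroup G), KillH p ϕ x → MonoidHom.transfer ϕ x = 1)) :
    (S : Subgroup G) ⊓ commutator G = (S : Subgroup G) ⊓ ⁅H, H⁆ := by
  rw [← group_focal_eq]
  apply fusion_transfer_core S.2 _ (Cfsg.Agent.S5076.result p S)
  · rw [group_focal_eq, commutator_def]
    exact inf_le_inf_left _ (Subgroup.commutator_mono le_top le_top)
  · exact le_inf (Subgroup.commutator_le_self _) (Subgroup.commutator_mono hSH hSH)
  · intro Q b hb
    obtain ⟨-, g, hg⟩ := (mor_group_iff _ _ _).1 hb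
    have hg' : ∀ r ∈ Q, b (r : G) = g * (r : G) * g⁻¹ ∧ g * (r : G) * g⁻¹ ∈ (S : Subgroup G) :=
      fun r hr => hg r ⟨r, hr, rfl⟩
    rcases hgb Q g (fun r hr => (hg' r hr).2) with h | h
    · left
      intro r hr
      rw [(hg' r hr).1]
      exact ⟨(S : Subgroup G).mul_mem ((S : Subgroup G).inv_mem r.2) (hg' r hr).2, h r hr⟩
    · right
      exact h

end Cfsg.Agent.Lib.Helper39
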