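import Cfsg.Agent.Lib.Helper39.NormalCtl2

set_option autoImplicit false

namespace Cfsg.Agent.Lib.Helper39

variable {G : Type*} [Group G]

theorem Ctl.conj' {N T U : Subgroup G} (h : Ctl N T U) {x : G}
    (hxN : x ∈ Subgroup.normalizer (N : Set G))
    (hx : x ∈ Subgroup.normalizer (T : Set G)) : Ctl N T (cj x U) := by
  intro A hA n hn hnA
  have hxi : x⁻¹ ∈ Subgroup.normalizer (T : Set G) := Subgroup.inv_mem _ hx
  have hxNi : x⁻¹ ∈ Subgroup.normalizer (N : Set G) := Subgroup.inv_mem _ hxN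
  have hconj : ∀ m ∈ N, x * m * x⁻¹ ∈ N := by
    intro m hm
    have := conj_mem_cj (g := x) hm
    rwa [cj_eq_of_mem_normalizer hxN] at this
  have hA' : cj x⁻¹ A ≤ T := by
    have := cj_mono x⁻¹ hA
    rwa [cj_eq_of_mem_normalizer hxi] at this
  have hn' : x⁻¹ * n * x ∈ N := by
    have := conj_mem_cj (g := x⁻¹) hn
    rwa [cj_eq_of_mem_normalizer hxNi, inv_inv] at this
  have h1 : cj (x⁻¹ * n * x) (cj x⁻¹ A) ≤ T := by
    rw [← cj_mul]
    have e : x⁻¹ * n * x * x⁻¹ = x⁻¹ * n := by group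
    rw [e, cj_mul]
    have := cj_mono x⁻¹ hnA
    rwa [cj_eq_of_mem_normalizer hxi] at this
  obtain ⟨h', ⟨hh1, hh2⟩, c, ⟨hc1, hc2⟩, e⟩ := h _ hA' _ hn' h1
  have hh2 : h' ∈ Subgroup.normalizer (U : Set G) := hh2
  have hc2 : c ∈ Subgroup.centralizer ((cj x⁻¹ A : Subgroup G) : Set G) := hc2
  refine ⟨x * h' * x⁻¹, ⟨hconj _ hh1, ?_⟩, x * c * x⁻¹, ⟨hconj _ hc1, ?_⟩, ?_⟩
  · show x * h' * x⁻¹ ∈ Subgroup.normalizer ((cj x U : Subgroup G) : Set G)
    rw [← cj_normalizer]; exact conj_mem_cj hh2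
  · show x * c * x⁻¹ ∈ Subgroup.centralizer (A : Set G)
    have := conj_mem_cj (g := x) hc2
    rwa [cj_centralizer, cj_cj_inv] at this
  · have : n = x * (x⁻¹ * n * x) * x⁻¹ := by group
    rw [this, e]; group

/-- the join of the `N_E(T)`-conjugates of `V` -/
theorem Ctl.closure_rel [Finite G] {E N T V : Subgroup G} (hEN : E ≤ Subgroup.normalizer (N : Set G))
    (hV : V ≤ T) (h : Ctl N T V) :
    ∃ W : Subgroup G, V ≤ W ∧ W ≤ T ∧
      E ⊓ Subgroup.normalizer (T : Set G) ≤ Subgroup.normalizer (W : Set G) ∧ Ctl N T W := by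
  set W : Subgroup G := ⨆ x : ↥(E ⊓ Subgroup.normalizer (T : Set G)), cj (x : G) V with hW
  have hW1 : ∀ x ∈ E ⊓ Subgroup.normalizer (T : Set G), cj x V ≤ W := by
    intro x hx
    exact le_iSup (fun x : ↥(E ⊓ Subgroup.normalizer (T : Set G)) => cj (x : G) V) ⟨x, hx⟩
  have hW2 : ∀ U : Subgroup G, (∀ x ∈ E ⊓ Subgroup.normalizer (T : Set G), cj x V ≤ U) → W ≤ U := by
    intro U hU
    exact iSup_le (fun x => hU x.1 x.2)
  have hWT : W ≤ T := by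
    apply hW2
    intro x hx
    have := cj_mono x hV
    rwa [cj_eq_of_mem_normalizer hx.2] at this
  refine ⟨W, ?_, hWT, ?_, ?_⟩
  · have := hW1 1 (Subgroup.one_mem _)
    rwa [cj_one] at this
  · intro m hm
    rw [mem_normalizer_iff_cj]
    apply cj_eq_of_le
    rw [cj_le_iff]
    apply hW2
    intro x hx
    rw [← cj_le_iff, ← cj_mul]
    exact hW1 _ (Subgroup.mul_mem _ hm hx)
  · obtain ⟨U, hU, hmax⟩ := (Set.toFinite {U : Subgroup G | U ≤ W ∧ Ctl N T U}).exists_maximal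
      ⟨⊥, bot_le, ctl_bot N T⟩
    have hWU : W ≤ U := by
      apply hW2
      intro x hx
      have h1 : U ⊔ cj x V ∈ {U : Subgroup G | U ≤ W ∧ Ctl N T U} :=
        ⟨sup_le hU.1 (hW1 x hx), Ctl.sup (hU.1.trans hWT) hU.2 (h.conj' (hEN hx.1) hx.2)⟩
      exact le_sup_right.trans (hmax h1 le_sup_left)
    rw [le_antisymm hWU hU.1]
    exact hU.2

theorem alperin_for_subgroup_rel [Finite G] {p : ℕ} [Fact p.Prime] {E S : Subgroup G} (hSE : S ≤ E)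
    (hS : IsPGroup p S) (hidx : ¬ p ∣ S.relIndex E) (L : Subgroup G)
    (hloc : ∀ A : Subgroup G, A ≤ S →
      ¬ p ∣ (S ⊓ Subgroup.normalizer (A : Set G)).relIndex (E ⊓ Subgroup.normalizer (A : Set G)) →
      (∀ B' : Subgroup G, B' ≤ S → Nat.card A < Nat.card B' →
        ∀ g ∈ E, cj g B' ≤ S → ∃ x ∈ L, ∀ a ∈ B', x * a * x⁻¹ = g * a * g⁻¹) →
      ∀ y ∈ E ⊓ Subgroup.normalizer (A : Set G), ∃ x ∈ L, ∀ a ∈ A, x * a * x⁻¹ = y * a * y⁻¹) :
    ∀ B : Subgroup G, B ≤ S → ∀ g ∈ E, cj g B ≤ S →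
      ∃ x ∈ L, ∀ a ∈ B, x * a * x⁻¹ = g * a * g⁻¹ := by
  apply alperin_rel hSE hS (fun B g => ∃ x ∈ L, ∀ a ∈ B, x * a * x⁻¹ = g * a * g⁻¹)
    (fun B B' g hB ⟨x, hx, hxa⟩ => ⟨x, hx, fun a ha => hxa a (hB ha)⟩)
    (fun B g h ⟨x1, hx1, hxa1⟩ ⟨x2, hx2, hxa2⟩ => ⟨x2 * x1, mul_mem hx2 hx1, fun a ha => by
      have h2 := hxa2 (g * a * g⁻¹) (conj_mem_cj ha)
      calc x2 * x1 * a * (x2 * x1)⁻¹ = x2 * (x1 * a * x1⁻¹) * x2⁻¹ := by group
        _ = x2 * (g * a * g⁻¹) * x2⁻¹ := by rw [hxa1 a ha]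
        _ = h * (g * a * g⁻¹) * h⁻¹ := h2
        _ = h * g * a * (h * g)⁻¹ := by group⟩)
    (fun B g ⟨x, hx, hxa⟩ => ⟨x⁻¹, inv_mem hx, fun a ha => by
      have ha' : g⁻¹ * a * g ∈ B := mem_cj.mp ha
      have h1 := hxa _ ha'
      have h2 : x * (g⁻¹ * a * g) * x⁻¹ = a := by rw [h1]; group
      calc x⁻¹ * a * x⁻¹⁻¹ = x⁻¹ * (x * (g⁻¹ * a * g) * x⁻¹) * x := by rw [h2]; group
        _ = g⁻¹ * a * g⁻¹⁻¹ := by group⟩)
  intro B hB IH
  obtain ⟨k, hkE, hk1, hk2⟩ := exists_fully_normalized_rel hSE hS hidx B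
  have hAS : cj k B ≤ S :=
    (cj_mono k (le_inf hB Subgroup.le_normalizer)).trans (hk1.trans inf_le_left)
  refine ⟨cj k B, hAS, ⟨k, hkE, rfl⟩, hk2, ?_⟩
  apply hloc _ hAS hk2
  intro B' hB' hc
  rw [card_cj] at hc
  exact IH B' hB' hc

/-- extension step: if a normal subgroup `Γ` of `Y ≤ N(A)` acts on `A` as a `p`-group and its Sylow
subgroup `PY ⊓ Γ` is not inside `A`, then the action of `y ∈ Y` on `A` extends to a larger subgroup. -/
theorem ext_step [Finite G] {p : ℕ} [Fact p.Prime] {P A Y PY Γ L : Subgroup G} (hP : IsPGroup p P)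
    (hAP : A ≤ P) (hYA : Y ≤ Subgroup.normalizer (A : Set G)) (hPYP : PY ≤ P) (hPYY : PY ≤ Y)
    (hidx : ¬ p ∣ PY.relIndex Y) (hΓY : Γ ≤ Y) (hYΓ : Y ≤ Subgroup.normalizer (Γ : Set G))
    (hPM : ∀ γ ∈ Γ, ∃ k : ℕ, γ ^ (p ^ k) ∈ Subgroup.centralizer (A : Set G))
    (hne : ∃ w ∈ PY ⊓ Γ, w ∉ A)
    (IH : ∀ B' : Subgroup G, B' ≤ P → Nat.card A < Nat.card B' →
        ∀ g ∈ Y, cj g B' ≤ P → ∃ x ∈ L, ∀ a ∈ B', x * a * x⁻¹ = g * a * g⁻¹)
    (y : G) (hy : y ∈ Y) : ∃ x ∈ L, ∀ a ∈ A, x * a * x⁻¹ = y * a * y⁻¹ := by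
  have hPYp : IsPGroup p PY := hP.to_le hPYP
  have hΓPidx : ¬ p ∣ (PY ⊓ Γ).relIndex Γ := inf_normal_sylow hPYY hPYp hidx hΓY hYΓ
  have hCn : Γ ≤ Subgroup.normalizer ((Γ ⊓ Subgroup.centralizer (A : Set G) : Subgroup G) : Set G) :=
    le_normalizer_inf Subgroup.le_normalizer
      (hΓY.trans (hYA.trans (normalizer_le_normalizer_centralizer A)))
  have hΓle : Γ ≤ (PY ⊓ Γ) ⊔ (Γ ⊓ Subgroup.centralizer (A : Set G)) :=
    le_sup_of_pmod inf_le_left hCn hΓPidx (fun γ hγ => by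
      obtain ⟨k, hk⟩ := hPM γ hγ
      exact ⟨k, Γ.pow_mem hγ _, hk⟩)
  obtain ⟨d, hd, hdy⟩ := frattini_rel hPYY hPYp hidx hΓY hYΓ y hy
  obtain ⟨s, hs, c, hc, e⟩ := mem_sup_of_le_normalizer (inf_le_right.trans hCn) (hΓle hd)
  have hcA : c ∈ Subgroup.centralizer (A : Set G) := hc.2
  have hcy : c * y ∈ Subgroup.normalizer ((PY ⊓ Γ : Subgroup G) : Set G) := by
    have e2 : c * y = s⁻¹ * (d * y) := by rw [e]; group
    rw [e2]
    exact Subgroup.mul_mem _ (Subgroup.inv_mem _ (Subgroup.le_normalizer hs)) hdy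
  have hcyY : c * y ∈ Y := Y.mul_mem (hΓY hc.1) hy
  obtain ⟨w, hwΓ, hwA⟩ := hne
  have hlt : A < A ⊔ (PY ⊓ Γ) :=
    lt_of_le_of_ne le_sup_left (fun h => hwA (by rw [h]; exact (le_sup_right : PY ⊓ Γ ≤ _) hwΓ))
  have hA1P : A ⊔ (PY ⊓ Γ) ≤ P := sup_le hAP (inf_le_left.trans hPYP)
  obtain ⟨x, hx, hxa⟩ := IH _ hA1P (card_lt_of_lt hlt) (c * y) hcyY (by
    rw [cj_sup, cj_eq_of_mem_normalizer (hYA hcyY), cj_eq_of_mem_normalizer hcy]; exact hA1P)
  refine ⟨x, hx, fun a ha => ?_⟩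
  rw [hxa a (le_sup_left (a := A) ha)]
  have h1 : y * a * y⁻¹ ∈ A := by
    have := conj_mem_cj (g := y) ha
    rwa [cj_eq_of_mem_normalizer (hYA hy)] at this
  have h2 := (Subgroup.mem_centralizer_iff.mp hcA) _ h1
  calc c * y * a * (c * y)⁻¹ = c * (y * a * y⁻¹) * c⁻¹ := by group
    _ = (y * a * y⁻¹) * c * c⁻¹ := by rw [h2]
    _ = y * a * y⁻¹ := by group

/-- a group stabilizing `A ≥ B0 ≥ 1` acts on `A` as a `p`-group -/
theorem pmod_of_stab [Finite G] {p : ℕ} [Fact p.Prime] {A B0 K : Subgroup G} (hB0 : IsPGroup p B0)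
    (h1 : ∀ z ∈ K, ∀ a ∈ A, z * a * z⁻¹ * a⁻¹ ∈ B0)
    (h2 : K ≤ Subgroup.centralizer (B0 : Set G)) :
    ∀ γ ∈ K, ∃ k : ℕ, γ ^ (p ^ k) ∈ Subgroup.centralizer (A : Set G) := by
  intro γ hγ
  have hst := Cfsg.Agent.Lib.Helper52.stab_chain (p := p) K 2
      (fun i => if i = 0 then ⊥ else if i = 1 then B0 else A) (by simp)
      (by
        intro i hi z hz a ha
        have hzC : z ∈ Subgroup.centralizer (B0 : Set G) := h2 hz
        interval_cases i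
        · simp only [zero_add, one_ne_zero, if_false, if_true] at ha ⊢
          rw [Subgroup.mem_bot]
          have := (Subgroup.mem_centralizer_iff.mp hzC) a ha
          rw [← this]; group
        · have ha' : a ∈ A := by simpa using ha
          exact h1 z hz a ha')
      (by
        intro i hi
        interval_cases i
        · simpa using IsPGroup.of_bot
        · simpa using hB0)
      _ hγ
  obtain ⟨k2, hk2⟩ := hst
  refine ⟨k2, ?_⟩
  rw [Subgroup.mem_centralizer_iff]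
  intro a ha
  exact (hk2 a (by simpa using ha)).symm

/-- relative form of `Ctl.global`, inside a subgroup `E` with Sylow subgroup `P` and normal
subgroup `N`. -/
theorem Ctl.global_rel [Finite G] {p : ℕ} [Fact p.Prime] {E N P W : Subgroup G} (hPE : P ≤ E)
    (hP : IsPGroup p P) (hPidx : ¬ p ∣ P.relIndex E) (hNE : N ≤ E)
    (hEN : E ≤ Subgroup.normalizer (N : Set G)) (hWT : W ≤ P ⊓ N)
    (hNT : E ⊓ Subgroup.normalizer ((P ⊓ N : Subgroup G) : Set G) ≤ Subgroup.normalizer (W : Set G))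
    (hctl : Ctl N (P ⊓ N) W) :
    ∀ B : Subgroup G, B ≤ P → ∀ g ∈ E, cj g B ≤ P →
      ∃ x ∈ E ⊓ Subgroup.normalizer (W : Set G), ∀ a ∈ B, x * a * x⁻¹ = g * a * g⁻¹ := by
  set T := P ⊓ N with hT
  have hPT : P ≤ Subgroup.normalizer (T : Set G) :=
    le_normalizer_inf Subgroup.le_normalizer (hPE.trans hEN)
  have hPW : P ≤ Subgroup.normalizer (W : Set G) := (le_inf hPE hPT).trans hNT
  have hcjN : ∀ g ∈ E, cj g N = N := fun g hg => cj_eq_of_mem_normalizer (hEN hg)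
  have hweak : ∀ g ∈ E, cj g W ≤ T → g ∈ Subgroup.normalizer (W : Set G) := by
    intro g hgE hg
    obtain ⟨d, hd, hdg⟩ := frattini_rel hPE hP hPidx hNE hEN g hgE
    have hdg' : d * g ∈ Subgroup.normalizer (W : Set G) := hNT ⟨E.mul_mem (hNE hd) hgE, hdg⟩
    have e : g = d⁻¹ * (d * g) := by group
    have h1 : cj d⁻¹ W ≤ T := by
      rw [e, cj_mul, cj_eq_of_mem_normalizer hdg'] at hg
      exact hg
    obtain ⟨h, hh, c, hc, e'⟩ := hctl W hWT d⁻¹ (N.inv_mem hd) h1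
    have hh2 : h ∈ Subgroup.normalizer (W : Set G) := hh.2
    have hc2 : c ∈ Subgroup.centralizer (W : Set G) := hc.2
    rw [e, e']
    exact Subgroup.mul_mem _ (Subgroup.mul_mem _ hh2 (Subgroup.centralizer_le_normalizer _ hc2)) hdg'
  apply alperin_for_subgroup_rel hPE hP hPidx
  intro A hAP hAidx IH y hy
  have hyA : y ∈ Subgroup.normalizer (A : Set G) := hy.2
  by_cases hWA : W ≤ A
  · refine ⟨y, ⟨hy.1, hweak y hy.1 ?_⟩, fun a _ => rfl⟩
    refine le_inf ((cj_mono y hWA).trans ?_) ?_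
    · rw [cj_eq_of_mem_normalizer hyA]; exact hAP
    · have := cj_mono y (hWT.trans inf_le_right)
      rwa [hcjN y hy.1] at this
  -- the main construction
  set Y := E ⊓ Subgroup.normalizer (A : Set G) with hY
  set B0 := A ⊓ N with hB0
  have hB0T : B0 ≤ T := inf_le_inf_right N hAP
  set HB := E ⊓ Subgroup.normalizer (B0 : Set G) with hHB
  have hYHB : Y ≤ HB := le_inf inf_le_left (le_normalizer_inf inf_le_right (inf_le_left.trans hEN))
  set M := N ⊓ Subgroup.normalizer (B0 : Set G) with hM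
  have hMHB : M ≤ HB := inf_le_inf_right _ hNE
  set C0 := N ⊓ Subgroup.centralizer (B0 : Set G) with hC0
  have hC0M : C0 ≤ M := inf_le_inf_left N (Subgroup.centralizer_le_normalizer _)
  have hHC0 : HB ≤ Subgroup.normalizer (C0 : Set G) :=
    le_normalizer_inf (inf_le_left.trans hEN)
      (inf_le_right.trans (normalizer_le_normalizer_centralizer B0))
  have hHM : HB ≤ Subgroup.normalizer (M : Set G) :=
    le_normalizer_inf (inf_le_left.trans hEN) (inf_le_right.trans Subgroup.le_normalizer)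
  set W0 := W ⊓ Subgroup.normalizer (B0 : Set G) with hW0
  have hW0M : W0 ≤ M := inf_le_inf_right _ (hWT.trans inf_le_right)
  have hW0p : IsPGroup p W0 := hP.to_le (inf_le_left.trans (hWT.trans inf_le_left))
  have hΘ : ∀ m ∈ M, cj m (W0 ⊔ C0) = W0 ⊔ C0 := by
    intro m hm
    have hm2 : m ∈ Subgroup.normalizer (B0 : Set G) := hm.2
    obtain ⟨h, hh, c, hc, e⟩ := hctl B0 hB0T m hm.1 (by rw [cj_eq_of_mem_normalizer hm2]; exact hB0T)
    have hh2 : h ∈ Subgroup.normalizer (W : Set G) := hh.2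
    have hcC0 : c ∈ C0 := hc
    have hcB0 : c ∈ Subgroup.normalizer (B0 : Set G) := (hC0M hcC0).2
    have hhB0 : h ∈ Subgroup.normalizer (B0 : Set G) := by
      have : h = m * c⁻¹ := by rw [e]; group
      rw [this]; exact Subgroup.mul_mem _ hm2 (Subgroup.inv_mem _ hcB0)
    have hhHB : h ∈ HB := ⟨hNE hh.1, hhB0⟩
    have h1 : cj c (W0 ⊔ C0) = W0 ⊔ C0 :=
      cj_eq_of_mem_normalizer (Subgroup.le_normalizer ((le_sup_right : C0 ≤ W0 ⊔ C0) hcC0))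
    rw [e, cj_mul, h1, cj_sup, cj_eq_of_mem_normalizer (hHC0 hhHB), hW0, cj_inf,
      cj_eq_of_mem_normalizer hh2, cj_normalizer, cj_eq_of_mem_normalizer hhB0]
  have hW0R : ∀ R : Subgroup G, R ≤ M → IsPGroup p R → ¬ p ∣ R.relIndex M → W0 ≤ R ⊔ C0 := by
    intro R hRM hRp hRidx
    obtain ⟨m, hm, hle⟩ := exists_conj_le_of_relIndex hRM hRp hRidx hW0M hW0p
    have h1 := hΘ m hm
    rw [cj_sup, cj_eq_of_mem_normalizer (hHC0 (hMHB hm))] at h1
    calc W0 ≤ W0 ⊔ C0 := le_sup_left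
      _ = cj m W0 ⊔ C0 := h1.symm
      _ ≤ R ⊔ C0 := sup_le_sup_right hle _
  let Γ : Subgroup G :=
    { carrier := {γ | γ ∈ Y ∧ γ ∈ N ∧ ∀ R : Subgroup G, R ≤ M → IsPGroup p R → ¬ p ∣ R.relIndex M →
        γ ∈ R ⊔ C0}
      mul_mem' := by
        rintro a b ⟨ha1, ha2, ha3⟩ ⟨hb1, hb2, hb3⟩
        exact ⟨Y.mul_mem ha1 hb1, N.mul_mem ha2 hb2, fun R h1 h2 h3 =>
          Subgroup.mul_mem _ (ha3 R h1 h2 h3) (hb3 R h1 h2 h3)⟩
      one_mem' := ⟨Y.one_mem, N.one_mem, fun R _ _ _ => Subgroup.one_mem _⟩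
      inv_mem' := by
        rintro a ⟨ha1, ha2, ha3⟩
        exact ⟨Y.inv_mem ha1, N.inv_mem ha2, fun R h1 h2 h3 => Subgroup.inv_mem _ (ha3 R h1 h2 h3)⟩ }
  have hΓY : Γ ≤ Y := fun γ hγ => hγ.1
  have hΓN : Γ ≤ N := fun γ hγ => hγ.2.1
  have hconjN : ∀ z ∈ E, ∀ n ∈ N, z * n * z⁻¹ ∈ N := by
    intro z hz n hn
    have := conj_mem_cj (g := z) hn
    rwa [hcjN z hz] at this
  have hYΓ : Y ≤ Subgroup.normalizer (Γ : Set G) := by
    intro z hz
    rw [mem_normalizer_iff_cj]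
    apply cj_eq_of_le
    rintro _ ⟨γ, hγ, rfl⟩
    have hzB0 : z ∈ HB := hYHB hz
    have hziB0 : z⁻¹ ∈ HB := Subgroup.inv_mem _ hzB0
    have e : (MulAut.conj z).toMonoidHom γ = z * γ * z⁻¹ := by simp [MulAut.conj_apply]
    rw [e]
    refine ⟨Y.mul_mem (Y.mul_mem hz hγ.1) (Y.inv_mem hz), hconjN z hz.1 _ hγ.2.1, ?_⟩
    intro R hRM hRp hRidx
    have h1 : γ ∈ cj z⁻¹ R ⊔ C0 := by
      apply hγ.2.2 (cj z⁻¹ R)
      · have := cj_mono z⁻¹ hRM
        rwa [cj_eq_of_mem_normalizer (hHM hziB0)] at this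
      · exact isPGroup_cj _ hRp
      · have := relIndex_cj z⁻¹ R M
        rw [cj_eq_of_mem_normalizer (hHM hziB0)] at this
        rw [this]; exact hRidx
    have h2 := conj_mem_cj (g := z) h1
    rwa [cj_sup, cj_cj_inv, cj_eq_of_mem_normalizer (hHC0 hzB0)] at h2
  have hAp : IsPGroup p A := hP.to_le hAP
  have hPM : ∀ γ ∈ Γ, ∃ k : ℕ, γ ^ (p ^ k) ∈ Subgroup.centralizer (A : Set G) := by
    intro γ hγ
    obtain ⟨R, -, hRM, hRp, hRidx⟩ := exists_sylow_rel (p := p) (N := M) (Q := ⊥) bot_le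
      (IsPGroup.of_bot)
    obtain ⟨r, hr, c0, hc0, e⟩ := mem_sup_of_le_normalizer
      (hRM.trans (hMHB.trans hHC0)) (hγ.2.2 R hRM hRp hRidx)
    obtain ⟨k1, hk1⟩ := hRp ⟨r, hr⟩
    have hk1' : r ^ p ^ k1 = 1 := by
      have := congrArg Subtype.val hk1
      simpa using this
    obtain ⟨b', hb', e2⟩ := pow_mul_mem (hHC0 (hMHB (hRM hr))) hc0 (p ^ k1)
    rw [← e, hk1', one_mul] at e2
    have hγ1 : γ ^ p ^ k1 ∈ Γ ⊓ C0 := ⟨Γ.pow_mem hγ _, by rw [e2]; exact hb'⟩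
    obtain ⟨k2, hk2⟩ := pmod_of_stab (p := p) (A := A) (B0 := B0) (K := Γ ⊓ C0)
      (hAp.to_le inf_le_left)
      (by
        intro z hz a ha
        have hzY : z ∈ Y := hΓY hz.1
        constructor
        · refine A.mul_mem ?_ (A.inv_mem ha)
          have := conj_mem_cj (g := z) ha
          rwa [cj_eq_of_mem_normalizer hzY.2] at this
        · have e3 : z * a * z⁻¹ * a⁻¹ = z * (a * z⁻¹ * a⁻¹) := by group
          rw [e3]
          exact N.mul_mem (hΓN hz.1) (hconjN a (hPE (hAP ha)) _ (N.inv_mem (hΓN hz.1))))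
      (inf_le_right.trans inf_le_right) _ hγ1
    refine ⟨k1 + k2, ?_⟩
    rw [pow_add, pow_mul]
    exact hk2
  obtain ⟨w, hw, hwA⟩ := exists_mem_normalizer_not_mem (p := p) (A := A) (W := W)
    (hP.to_le (sup_le hAP (hWT.trans inf_le_left))) (hAP.trans hPW) hWA
  have hwP : w ∈ P := (hWT hw.1).1
  have hwY : w ∈ Y := ⟨hPE hwP, hw.2⟩
  have hwΓ : w ∈ (P ⊓ Subgroup.normalizer (A : Set G)) ⊓ Γ := by
    refine ⟨⟨hwP, hw.2⟩, hwY, (hWT hw.1).2, ?_⟩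
    intro R h1 h2 h3
    exact hW0R R h1 h2 h3 ⟨hw.1, (hYHB hwY).2⟩
  exact ext_step hP hAP inf_le_right inf_le_left (inf_le_inf_right _ hPE) hAidx hΓY hYΓ hPM
    ⟨w, hwΓ, hwA⟩ (fun B' hB' hc g hg hgB => IH B' hB' hc g hg.1 hgB) y hy

end Cfsg.Agent.Lib.Helper39
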