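import Cfsg.Agent.Lib.Helper39.TransferTrans
import Cfsg.Agent.Lib.Helper40.OrbitProd
import Cfsg.Agent.Lib.Helper40.TransferEval

set_option autoImplicit false

namespace Cfsg.Agent.Lib.Helper39

open Cfsg.Agent.Lib.Helper40

/-- the commutator map `y ↦ [y, z] = y⁻¹ z⁻¹ y z` -/
abbrev dl {G : Type*} [Group G] (z : G) : G → G := fun y => y⁻¹ * z⁻¹ * y * z

theorem inv_conj_pow {G : Type*} [Group G] (u x : G) (k : ℕ) :
    (u⁻¹ * x * u) ^ k = u⁻¹ * x ^ k * u := by
  have := conj_pow (a := u⁻¹) (b := x) (i := k)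
  rwa [inv_inv] at this

theorem orderOf_inv_conj {G : Type*} [Group G] (u x : G) : orderOf (u⁻¹ * x * u) = orderOf x := by
  have := (MulAut.conj u⁻¹).orderOf_eq x
  rwa [MulAut.conj_apply, inv_inv] at this

/-- `ϕ` kills all conjugates of the powers `x ^ k`, `p ∣ k`, lying in `Q`. -/
def KillH {G A : Type*} [Group G] [CommGroup A] (p : ℕ) {Q : Subgroup G} (ϕ : Q →* A) (x : G) :
    Prop :=
  ∀ (r : Q) (u : G) (k : ℕ), p ∣ k → (r : G) = u⁻¹ * x ^ k * u → ϕ r = 1

theorem transfer_eq_one_of_forall {G A : Type*} [Group G] [Finite G] [CommGroup A] {Q : Subgroup G}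
    (ϕ : Q →* A) (x : G) (h : ∀ (r : Q) (u : G) (k : ℕ), (r : G) = u⁻¹ * x ^ k * u → ϕ r = 1) :
    MonoidHom.transfer ϕ x = 1 := by
  classical
  let _ : Fintype (Quotient (MulAction.orbitRel (Subgroup.zpowers x) (G ⧸ Q))) := Fintype.ofFinite _
  rw [MonoidHom.transfer_eq_prod_quotient_orbitRel_zpowers_quot]
  apply Finset.prod_eq_one
  intro q _
  exact h _ q.out.out _ rfl

theorem KillH.transfer {G A : Type*} [Group G] [Finite G] [CommGroup A] {p : ℕ} {Q : Subgroup G}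
    {ϕ : Q →* A} {x : G} (h : KillH p ϕ x) (M : Subgroup G) :
    KillH p (MonoidHom.transfer (resHom ϕ M)) x := by
  intro r u k hk hr
  apply transfer_eq_one_of_forall
  intro r' m j hr'
  rw [resHom_apply]
  apply h _ (u * m) (k * j) (Dvd.dvd.mul_right hk j)
  show ((r' : M) : G) = _
  rw [hr']
  show ((m : G))⁻¹ * ((r : G)) ^ j * (m : G) = _
  rw [hr, inv_conj_pow u (x ^ k) j, ← pow_mul]
  group

theorem KillH.conj {G A : Type*} [Group G] [CommGroup A] {p : ℕ} {Q : Subgroup G}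
    {ϕ : Q →* A} {x : G} (h : KillH p ϕ x) (v : G) : KillH p ϕ (v⁻¹ * x * v) := by
  intro r u k hk hr
  apply h r (v * u) k hk
  rw [hr, inv_conj_pow]
  group

/-- restriction of `KillH` to a subgroup `R`. -/
theorem KillH.res {G A : Type*} [Group G] [CommGroup A] {p : ℕ} {Q : Subgroup G}
    {ϕ : Q →* A} {R : Subgroup G} {y : R} (h : KillH p ϕ (y : G)) : KillH p (resHom ϕ R) y := by
  intro r u k hk hr
  rw [resHom_apply]
  apply h _ (u : G) k hk
  show ((r : R) : G) = _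
  rw [hr]
  simp

/-- general step: the transfer of `x` vanishes if the transfers of its conjugates from an
intermediate subgroup do. -/
theorem transfer_eq_one_of_intermediate {G A : Type*} [Group G] [Finite G] [CommGroup A] {p : ℕ}
    [Fact p.Prime] {Q R : Subgroup G} (hQR : Q ≤ R) (ϕ : Q →* A) (x : G)
    (hx : ∃ e : ℕ, orderOf x = p ^ e) (hK : KillH p ϕ x)
    (h : ∀ (y : R) (u : G), (y : G) = u⁻¹ * x * u → MonoidHom.transfer (resHom ϕ R) y = 1) :
    MonoidHom.transfer ϕ x = 1 := by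
  rw [← transfer_trans hQR]
  apply transfer_eq_one_of_forall
  intro r u k hr
  by_cases hk : p ∣ k
  · exact hK.transfer R r u k hk hr
  · obtain ⟨e, he⟩ := hx
    have hcop : k.Coprime (orderOf (u⁻¹ * x * u)) := by
      rw [orderOf_inv_conj, he]
      exact Nat.Coprime.pow_right _ (((Nat.Prime.coprime_iff_not_dvd Fact.out).2 hk).symm)
    obtain ⟨m, hm⟩ := exists_pow_eq_self_of_coprime hcop
    have e1 : (r : G) = (u⁻¹ * x * u) ^ k := by rw [hr, inv_conj_pow]
    have hy : u⁻¹ * x * u ∈ R := by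
      rw [← hm, ← e1]; exact R.pow_mem r.2 m
    have e2 : r = (⟨u⁻¹ * x * u, hy⟩ : R) ^ k := Subtype.ext e1
    rw [e2, map_pow, h ⟨_, hy⟩ u rfl, one_pow]

theorem dvd_of_pow_mem_of_index {G : Type*} [Group G] {p : ℕ} [hp : Fact p.Prime] {M : Subgroup G}
    [M.Normal] (hM : M.index = p) {x : G} (hx : x ∉ M) {k : ℕ} (hk : x ^ k ∈ M) : p ∣ k := by
  have h1 : ((x : G ⧸ M)) ^ k = 1 := by
    rw [← QuotientGroup.mk_pow]; exact (QuotientGroup.eq_one_iff _).2 hk
  have h2 : orderOf (x : G ⧸ M) ∣ p := by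
    have : Nat.card (G ⧸ M) = p := hM
    rw [← this]; exact orderOf_dvd_natCard _
  have h3 : orderOf (x : G ⧸ M) ≠ 1 := by
    rw [Ne, orderOf_eq_one_iff]
    intro h; exact hx ((QuotientGroup.eq_one_iff _).1 h)
  have h4 : orderOf (x : G ⧸ M) = p := ((Nat.dvd_prime hp.out).1 h2).resolve_left h3
  rw [← h4]; exact orderOf_dvd_of_pow_eq_one h1

theorem iterate_dl_mem {G : Type*} [Group G] {M : Subgroup G} [hn : M.Normal] (z : G) {x : G}
    (hx : x ∈ M) (k : ℕ) : (dl z)^[k] x ∈ M := by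
  induction k with
  | zero => exact hx
  | succ k ih =>
    rw [Function.iterate_succ_apply']
    show ((dl z)^[k] x)⁻¹ * z⁻¹ * (dl z)^[k] x * z ∈ M
    have h1 := hn.conj_mem _ ih z⁻¹
    rw [inv_inv] at h1
    have e : ((dl z)^[k] x)⁻¹ * z⁻¹ * (dl z)^[k] x * z
        = ((dl z)^[k] x)⁻¹ * (z⁻¹ * (dl z)^[k] x * z) := by group
    rw [e]; exact M.mul_mem (M.inv_mem ih) h1

/-- the "norm" of `x ∈ M` under a hom of exponent `p` is the iterated commutator. -/
theorem prod_conj_eq_iterate {G A : Type*} [Group G] [CommGroup A] {p : ℕ} [hp : Fact p.Prime]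
    {M : Subgroup G} [hn : M.Normal] (ν : M →* A) (hA : ∀ a : A, a ^ p = 1) (z : G) (x : G)
    (hx : x ∈ M) (hc : ∀ (w : G) (i : ℕ), w ∈ M → (z ^ i)⁻¹ * w * z ^ i ∈ M) :
    ∏ i ∈ Finset.range p, ν ⟨(z ^ i)⁻¹ * x * z ^ i, hc x i hx⟩ =
      ν ⟨(dl z)^[p - 1] x, iterate_dl_mem z hx _⟩ := by
  let a : ℕ → ℕ → A := fun k i =>
    ν ⟨(z ^ i)⁻¹ * (dl z)^[k] x * z ^ i, hc _ i (iterate_dl_mem z hx k)⟩
  have hstep : ∀ k, mdiff (a k) = a (k + 1) := by
    intro k
    funext i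
    show a k (i + 1) / a k i = a (k + 1) i
    rw [div_eq_iff_eq_mul, mul_comm, ← map_mul]
    show ν _ = ν _
    congr 1
    apply Subtype.ext
    show (z ^ (i + 1))⁻¹ * (dl z)^[k] x * z ^ (i + 1) =
      (z ^ i)⁻¹ * (dl z)^[k] x * z ^ i * ((z ^ i)⁻¹ * (dl z)^[k + 1] x * z ^ i)
    rw [Function.iterate_succ_apply', pow_succ]
    show _ = (z ^ i)⁻¹ * (dl z)^[k] x * z ^ i *
      ((z ^ i)⁻¹ * (((dl z)^[k] x)⁻¹ * z⁻¹ * (dl z)^[k] x * z) * z ^ i)
    have hcomm : z * z ^ i = z ^ i * z := (pow_succ' z i).symm.trans (pow_succ z i)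
    calc (z ^ i * z)⁻¹ * (dl z)^[k] x * (z ^ i * z)
        = z⁻¹ * ((z ^ i)⁻¹ * (dl z)^[k] x * z ^ i) * z := by group
      _ = (z ^ i)⁻¹ * (z⁻¹ * (dl z)^[k] x * z) * z ^ i := by
          have h1 : z⁻¹ * (z ^ i)⁻¹ = (z ^ i)⁻¹ * z⁻¹ := by
            rw [← mul_inv_rev, ← mul_inv_rev, hcomm]
          calc z⁻¹ * ((z ^ i)⁻¹ * (dl z)^[k] x * z ^ i) * z
              = (z⁻¹ * (z ^ i)⁻¹) * (dl z)^[k] x * (z ^ i * z) := by group
            _ = ((z ^ i)⁻¹ * z⁻¹) * (dl z)^[k] x * (z * z ^ i) := by rw [h1, hcomm]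
            _ = _ := by group
      _ = _ := by group
  have hiter : ∀ k, mdiff^[k] (a 0) = a k := by
    intro k
    induction k with
    | zero => rfl
    | succ k ih => rw [Function.iterate_succ_apply', ih, hstep]
  have h0 : ∏ i ∈ Finset.range p, ν ⟨(z ^ i)⁻¹ * x * z ^ i, hc x i hx⟩ =
      ∏ i ∈ Finset.range p, a 0 i := rfl
  rw [h0, prod_range_eq_prod_mdiff]
  have hp1 : p - 1 ∈ Finset.range p := Finset.mem_range.2 (Nat.sub_lt hp.out.pos one_pos)
  rw [Finset.prod_eq_single_of_mem (p - 1) hp1]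
  · rw [hiter, Nat.sub_add_cancel hp.out.one_le, Nat.choose_self, pow_one]
    show ν ⟨(z ^ 0)⁻¹ * (dl z)^[p - 1] x * z ^ 0, _⟩ = _
    congr 1
    apply Subtype.ext
    simp
  · intro k hk hne
    rw [Finset.mem_range] at hk
    have hdvd : p ∣ p.choose (k + 1) :=
      hp.out.dvd_choose_self (Nat.succ_ne_zero k) (by omega)
    obtain ⟨m, hm⟩ := hdvd
    rw [hm, pow_mul, hA, one_pow]

theorem orderOf_mk_of_index {G : Type*} [Group G] {p : ℕ} [hp : Fact p.Prime] {M : Subgroup G}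
    [M.Normal] (hM : M.index = p) {x : G} (hx : x ∉ M) : orderOf (x : G ⧸ M) = p := by
  have h2 : orderOf (x : G ⧸ M) ∣ p := by
    have : Nat.card (G ⧸ M) = p := hM
    rw [← this]; exact orderOf_dvd_natCard _
  have h3 : orderOf (x : G ⧸ M) ≠ 1 := by
    rw [Ne, orderOf_eq_one_iff]
    intro h; exact hx ((QuotientGroup.eq_one_iff _).1 h)
  exact ((Nat.dvd_prime hp.out).1 h2).resolve_left h3

/-- index `p` step: a nonvanishing transfer produces a hom on `M` not killing `[x, z; p-1]`. -/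
theorem exists_of_transfer_ne_one {G A : Type*} [Group G] [Finite G] [CommGroup A] {p : ℕ}
    [hp : Fact p.Prime] {Q M : Subgroup G} [hn : M.Normal] (hM : M.index = p) (hQM : Q ≤ M)
    (ϕ : Q →* A) (hA : ∀ a : A, a ^ p = 1) (x : G) (hK : KillH p ϕ x) (z : G) (hz : z ∉ M)
    (hne : MonoidHom.transfer ϕ x ≠ 1) :
    ∃ (hx : x ∈ M),
      MonoidHom.transfer (resHom ϕ M) ⟨(dl z)^[p - 1] x, iterate_dl_mem z hx _⟩ ≠ 1 := by
  classical
  rw [← transfer_trans hQM] at hne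
  set ν := MonoidHom.transfer (resHom ϕ M) with hν
  by_cases hx : x ∈ M
  · refine ⟨hx, ?_⟩
    have hn' : ∀ t : G, t⁻¹ * x * t ∈ M := fun t => by
      have := hn.conj_mem x hx t⁻¹
      rwa [inv_inv] at this
    have : Fintype (G ⧸ M) := Fintype.ofFinite _
    rw [transfer_eq_prod_of_conj_mem ν x hn'] at hne
    have hc : ∀ (w : G) (i : ℕ), w ∈ M → (z ^ i)⁻¹ * w * z ^ i ∈ M := fun w i hw => by
      have := hn.conj_mem w hw (z ^ i)⁻¹
      rwa [inv_inv] at this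
    rw [← prod_conj_eq_iterate ν hA z x hx hc]
    let f : Fin p → G ⧸ M := fun i => ((z ^ (i : ℕ) : G) : G ⧸ M)
    have hf : Function.Bijective f := by
      rw [Fintype.bijective_iff_injective_and_card]
      refine ⟨?_, ?_⟩
      · intro i j hij
        have h1 : (z : G ⧸ M) ^ (i : ℕ) = (z : G ⧸ M) ^ (j : ℕ) := hij
        apply Fin.ext
        apply pow_injOn_Iio_orderOf (x := (z : G ⧸ M)) _ _ h1
        · rw [orderOf_mk_of_index hM hz]; exact i.2
        · rw [orderOf_mk_of_index hM hz]; exact j.2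
      · rw [Fintype.card_fin, ← Nat.card_eq_fintype_card]; exact hM.symm
    rw [← hf.prod_comp] at hne
    rw [← Fin.prod_univ_eq_prod_range (fun i => ν ⟨(z ^ i)⁻¹ * x * z ^ i, hc x i hx⟩) p]
    intro h1
    apply hne
    rw [← h1]
    apply Finset.prod_congr rfl
    intro i _
    exact conj_val_eq ν x hn' (QuotientGroup.out_eq' (f i))
  · exfalso
    apply hne
    apply transfer_eq_one_of_forall
    intro r u k hr
    apply hK.transfer M r u k _ hr
    apply dvd_of_pow_mem_of_index hM hx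
    have h1 := hn.conj_mem _ r.2 u
    rw [hr] at h1
    have e : u * (u⁻¹ * x ^ k * u) * u⁻¹ = x ^ k := by group
    rwa [e] at h1

end Cfsg.Agent.Lib.Helper39
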