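import Mathlib

set_option autoImplicit false

namespace Cfsg.Agent.Lib.Helper39

open Subgroup Subgroup.leftTransversals MulAction

/-- the transfer computed with an arbitrary section of `G → G ⧸ H`, via a total function `ψ`
extending `ϕ` -/
theorem transfer_eq_prod_section {G A : Type*} [Group G] [CommGroup A] (H : Subgroup G)
    [H.FiniteIndex] [Fintype (G ⧸ H)] (ϕ : H →* A) (ψ : G → A) (hψ : ∀ h : H, ψ h = ϕ h)
    (s : G ⧸ H → G) (hs : ∀ q : G ⧸ H, ((s q : G) : G ⧸ H) = q) (y : G) :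
    MonoidHom.transfer ϕ y = ∏ q : G ⧸ H, ψ ((s q)⁻¹ * (y * s (y⁻¹ • q))) := by
  let T₀ : H.LeftTransversal := ⟨Set.range s, isComplement_range_left hs⟩
  rw [MonoidHom.transfer_def ϕ T₀ y]
  unfold diff
  dsimp only
  refine Finset.prod_congr (by ext; simp) ?_
  intro q _
  rw [← hψ]
  congr 1
  dsimp only
  rw [smul_apply_eq_smul_apply_inv_smul]
  rw [IsComplement.leftQuotientEquiv_apply hs, IsComplement.leftQuotientEquiv_apply hs]
  rfl

theorem section_inv_mul_mem {G : Type*} [Group G] (H : Subgroup G) (s : G ⧸ H → G)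
    (hs : ∀ q : G ⧸ H, ((s q : G) : G ⧸ H) = q) (y : G) (q : G ⧸ H) :
    (s q)⁻¹ * (y * s (y⁻¹ • q)) ∈ H := by
  rw [← QuotientGroup.eq]
  have h1 : ((y * s (y⁻¹ • q) : G) : G ⧸ H) = y • ((s (y⁻¹ • q) : G) : G ⧸ H) := rfl
  rw [h1, hs, hs, smul_inv_smul]

/-- restriction of a hom on `Q` to `Q.subgroupOf M` -/
def resHom {G A : Type*} [Group G] [CommGroup A] {Q : Subgroup G} (ϕ : Q →* A) (M : Subgroup G) :
    (Q.subgroupOf M) →* A where
  toFun x := ϕ ⟨(x : M), x.2⟩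
  map_one' := by
    have : (⟨((1 : Q.subgroupOf M) : M), (1 : Q.subgroupOf M).2⟩ : Q) = 1 := rfl
    rw [this, map_one]
  map_mul' x y := by
    rw [← map_mul]; rfl

theorem resHom_apply {G A : Type*} [Group G] [CommGroup A] {Q : Subgroup G} (ϕ : Q →* A)
    (M : Subgroup G) (x : Q.subgroupOf M) : resHom ϕ M x = ϕ ⟨(x : M), x.2⟩ := rfl

/-- **Transitivity of the transfer.** -/
theorem transfer_trans {G A : Type*} [Group G] [Finite G] [CommGroup A] {Q M : Subgroup G}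
    (hQM : Q ≤ M) (ϕ : Q →* A) (y : G) :
    MonoidHom.transfer (MonoidHom.transfer (resHom ϕ M)) y = MonoidHom.transfer ϕ y := by
  classical
  have : Fintype (G ⧸ Q) := Fintype.ofFinite _
  have : Fintype (G ⧸ M) := Fintype.ofFinite _
  have : Fintype (M ⧸ Q.subgroupOf M) := Fintype.ofFinite _
  set ν : M →* A := MonoidHom.transfer (resHom ϕ M) with hν
  -- total extensions
  let ψ : G → A := fun g => if h : g ∈ Q then ϕ ⟨g, h⟩ else 1
  have hψ : ∀ h : Q, ψ h = ϕ h := fun h => by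
    show (if h' : (h : G) ∈ Q then ϕ ⟨h, h'⟩ else 1) = ϕ h
    rw [dif_pos h.2]
  let ψM : M → A := fun m => ψ m
  have hψM : ∀ h : Q.subgroupOf M, ψM h = resHom ϕ M h := fun h => by
    show ψ ((h : M) : G) = _
    exact hψ ⟨((h : M) : G), h.2⟩
  let νt : G → A := fun g => if h : g ∈ M then ν ⟨g, h⟩ else 1
  have hνt : ∀ h : M, νt h = ν h := fun h => by
    show (if h' : (h : G) ∈ M then ν ⟨h, h'⟩ else 1) = ν h
    rw [dif_pos h.2]
  let s1 : G ⧸ M → G := Quotient.out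
  have hs1 : ∀ q : G ⧸ M, ((s1 q : G) : G ⧸ M) = q := Quotient.out_eq'
  let s2 : M ⧸ Q.subgroupOf M → M := Quotient.out
  have hs2 : ∀ q : M ⧸ Q.subgroupOf M, ((s2 q : M) : M ⧸ Q.subgroupOf M) = q := Quotient.out_eq'
  let e : G ⧸ Q ≃ (G ⧸ M) × (M ⧸ Q.subgroupOf M) := quotientEquivProdOfLE' hQM s1 hs1
  have hesymm : ∀ (a : G ⧸ M) (m : M), e.symm (a, (m : M ⧸ Q.subgroupOf M)) =
      ((s1 a * (m : G) : G) : G ⧸ Q) := fun a m => rfl
  let s : G ⧸ Q → G := fun q => s1 (e q).1 * (s2 (e q).2 : G)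
  have hs : ∀ q : G ⧸ Q, ((s q : G) : G ⧸ Q) = q := by
    intro q
    have h1 := hesymm (e q).1 (s2 (e q).2)
    rw [hs2] at h1
    rw [← h1]
    exact e.symm_apply_apply q
  rw [transfer_eq_prod_section Q ϕ ψ hψ s hs y, transfer_eq_prod_section M ν νt hνt s1 hs1 y,
    ← e.symm.prod_comp, Fintype.prod_prod_type]
  apply Finset.prod_congr rfl
  intro a _
  set ha : M := ⟨(s1 a)⁻¹ * (y * s1 (y⁻¹ • a)), section_inv_mul_mem M s1 hs1 y a⟩ with hha
  have h1 : νt ((s1 a)⁻¹ * (y * s1 (y⁻¹ • a))) = ν ha := hνt ha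
  rw [h1, hν, transfer_eq_prod_section (Q.subgroupOf M) (resHom ϕ M) ψM hψM s2 hs2 ha]
  apply Finset.prod_congr rfl
  intro b _
  show ψ _ = ψ _
  congr 1
  have hb : e.symm (a, b) = ((s1 a * (s2 b : G) : G) : G ⧸ Q) := by
    rw [← hesymm, hs2]
  have h2 : y⁻¹ • e.symm (a, b) = e.symm (y⁻¹ • a, ha⁻¹ • b) := by
    have h3 : ha⁻¹ • b = ((ha⁻¹ * s2 b : M) : M ⧸ Q.subgroupOf M) := by
      conv_lhs => rw [← hs2 b]
      rfl
    rw [h3, hesymm, hb]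
    show ((y⁻¹ * (s1 a * (s2 b : G)) : G) : G ⧸ Q) = _
    congr 1
    show _ = s1 (y⁻¹ • a) * (((s1 a)⁻¹ * (y * s1 (y⁻¹ • a)))⁻¹ * (s2 b : G))
    group
  have h4 : s (e.symm (a, b)) = s1 a * (s2 b : G) := by
    show s1 (e (e.symm (a, b))).1 * (s2 (e (e.symm (a, b))).2 : G) = _
    rw [e.apply_symm_apply]
  have h5 : s (y⁻¹ • e.symm (a, b)) = s1 (y⁻¹ • a) * (s2 (ha⁻¹ • b) : G) := by
    rw [h2]
    show s1 (e (e.symm (y⁻¹ • a, ha⁻¹ • b))).1 * (s2 (e (e.symm (y⁻¹ • a, ha⁻¹ • b))).2 : G) = _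
    rw [e.apply_symm_apply]
  rw [h4, h5]
  show ((s2 b : G))⁻¹ * (((s1 a)⁻¹ * (y * s1 (y⁻¹ • a))) * (s2 (ha⁻¹ • b) : G)) = _
  group

end Cfsg.Agent.Lib.Helper39
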