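import Cfsg.Agent.Lib.Helper39.GroupTransferCore

/-!
# Yoshida's refinement of Wielandt's theorem on weakly closed subgroups
-/

set_option autoImplicit false

namespace Cfsg.Agent.Lib.Helper39

open scoped commutatorElement

universe u

theorem isCoatom_of_index_eq_prime {G : Type*} [Group G] {p : ℕ} [hp : Fact p.Prime]
    {H : Subgroup G} (h : H.index = p) : IsCoatom H := by
  constructor
  · intro htop
    rw [htop, Subgroup.index_top] at h
    exact hp.out.one_lt.ne h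
  · intro K hK
    have h1 : K.index ∣ p := h ▸ Subgroup.index_dvd_of_le hK.le
    rcases (Nat.dvd_prime hp.out).1 h1 with h2 | h2
    · exact Subgroup.index_eq_one.1 h2
    · exfalso
      have h3 := Subgroup.relIndex_mul_index hK.le
      rw [h, h2] at h3
      have h4 : H.relIndex K = 1 := by
        have := hp.out.pos
        nlinarith
      exact hK.not_ge (Subgroup.relIndex_eq_one.1 h4)

/-- The witness: an iterated commutator `[y, z; p-1]` in a maximal subgroup `W₀` of `W` outside a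
maximal subgroup `K` of `W₀`. -/
def Wit {X : Type*} [Group X] (p : ℕ) (T W : Subgroup X) : Prop :=
  ∃ y ∈ T, ∃ z ∈ W, ∃ K W₀ : Subgroup X, K ≤ W₀ ∧ W₀ ≤ W ∧ K.relIndex W₀ = p ∧
    W₀.relIndex W = p ∧ (dl z)^[p - 1] y ∈ W₀ ∧ (dl z)^[p - 1] y ∉ K

theorem map_iterate_dl {X Y : Type*} [Group X] [Group Y] (f : X →* Y) (z y : X) (n : ℕ) :
    f ((dl z)^[n] y) = (dl (f z))^[n] (f y) := by
  induction n with
  | zero => rfl
  | succ n ih =>
    rw [Function.iterate_succ_apply', Function.iterate_succ_apply', ← ih]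
    simp [dl]

theorem Wit.map {X Y : Type*} [Group X] [Group Y] {p : ℕ} {T W : Subgroup X} (h : Wit p T W)
    (f : X →* Y) (hf : Function.Injective f) : Wit p (T.map f) (W.map f) := by
  obtain ⟨y, hy, z, hz, K, W₀, h1, h2, h3, h4, h5, h6⟩ := h
  refine ⟨f y, ⟨y, hy, rfl⟩, f z, ⟨z, hz, rfl⟩, K.map f, W₀.map f, Subgroup.map_mono h1,
    Subgroup.map_mono h2, ?_, ?_, ?_, ?_⟩
  · rw [Subgroup.relIndex_map_map_of_injective _ _ hf, h3]
  · rw [Subgroup.relIndex_map_map_of_injective _ _ hf, h4]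
  · rw [← map_iterate_dl]; exact ⟨_, h5, rfl⟩
  · rw [← map_iterate_dl]
    rintro ⟨v, hv, e⟩
    rw [hf e] at hv
    exact h6 hv

/-- the case `Q W = X`. -/
theorem wit_of_sup_eq_top {X : Type*} [Group X] [Finite X] {p : ℕ} [hp : Fact p.Prime]
    (hX : IsPGroup p X) (W Q : Subgroup X) [hW : W.Normal] (hsup : Q ⊔ W = ⊤) (hQ : Q ≠ ⊤)
    {A : Type*} [CommGroup A] [Finite A] (ϕ : Q →* A) (hA : ∀ a : A, a ^ p = 1) (y : X)
    (hK : KillH p ϕ y) (hne : MonoidHom.transfer ϕ y ≠ 1) : Wit p ⊤ W := by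
  obtain ⟨M, hM, hQM⟩ := (eq_top_or_exists_le_coatom Q).resolve_left hQ
  have hn : M.Normal := Helper3.coatom_normal hX hM
  have hidx : M.index = p := Helper3.coatom_index hX hM
  have hWM : ¬ W ≤ M := by
    intro hle
    apply hM.1
    rw [eq_top_iff, ← hsup]
    exact sup_le hQM hle
  obtain ⟨z, hzW, hz⟩ := SetLike.not_le_iff_exists.1 hWM
  obtain ⟨hy, h1⟩ := exists_of_transfer_ne_one hidx hQM ϕ hA y hK z hz hne
  set ν := MonoidHom.transfer (resHom ϕ M) with hν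
  set w := (dl z)^[p - 1] y with hw
  have hwM : w ∈ M := iterate_dl_mem z hy _
  have hwW : w ∈ W := by
    obtain ⟨n, hn'⟩ : ∃ n, p - 1 = n + 1 :=
      ⟨p - 2, by have := hp.out.two_le; omega⟩
    rw [hw, hn', Function.iterate_succ_apply']
    set v := (dl z)^[n] y
    show v⁻¹ * z⁻¹ * v * z ∈ W
    have h2 := hW.conj_mem _ (W.inv_mem hzW) v⁻¹
    rw [inv_inv] at h2
    exact W.mul_mem h2 hzW
  let ν₀ : ↥(W ⊓ M) →* A := ν.comp (Subgroup.inclusion inf_le_right)
  have hν₀ : ν₀ ⟨w, hwW, hwM⟩ ≠ 1 := h1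
  obtain ⟨ν', hne', hKidx, -⟩ := exists_hom_index_ker hA ν₀ _ hν₀
  refine ⟨y, Subgroup.mem_top _, z, hzW, ν'.ker.map (W ⊓ M).subtype, W ⊓ M,
    Subgroup.map_subtype_le _, inf_le_left, ?_, ?_, ⟨hwW, hwM⟩, ?_⟩
  · rw [Subgroup.relIndex, Subgroup.subgroupOf,
      Subgroup.comap_map_eq_self_of_injective (Subgroup.subtype_injective _), hKidx]
  · rw [Subgroup.inf_relIndex_left, ← Subgroup.relIndex_sup_right W M]
    have : W ⊔ M = ⊤ := by
      rw [eq_top_iff, ← hsup]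
      exact sup_le (hQM.trans le_sup_right) le_sup_left
    rw [this, Subgroup.relIndex_top_right, hidx]
  · rintro ⟨v, hv, e⟩
    apply hne'
    have : v = ⟨w, hwW, hwM⟩ := Subtype.ext e
    rw [← this]
    exact hv

theorem wielandt_bad {P : Type*} [Group P] [Finite P] {p : ℕ} [hp : Fact p.Prime]
    (hP : IsPGroup p P) (W Q : Subgroup P) [hW : W.Normal] (hno : ¬ Wit p ⊤ W) (hWQ : ¬ W ≤ Q)
    {A : Type*} [CommGroup A] [Finite A] (ϕ : Q →* A) (hA : ∀ a : A, a ^ p = 1) (x : P)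
    (hK : KillH p ϕ x) : MonoidHom.transfer ϕ x = 1 := by
  apply transfer_eq_one_of_intermediate (R := Q ⊔ W) le_sup_left ϕ x
    (IsPGroup.iff_orderOf.mp hP x) hK
  intro y u hy
  by_contra hne
  apply hno
  have hKy : KillH p (resHom ϕ (Q ⊔ W)) y := KillH.res (hy ▸ hK.conj u)
  have hWn : (W.subgroupOf (Q ⊔ W)).Normal := hW.subgroupOf _
  have h1 := wit_of_sup_eq_top (hP.to_subgroup (Q ⊔ W)) (W.subgroupOf (Q ⊔ W))
    (Q.subgroupOf (Q ⊔ W))
    (by rw [← Subgroup.subgroupOf_sup le_sup_left le_sup_right, Subgroup.subgroupOf_self])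
    (by
      rw [Ne, Subgroup.subgroupOf_eq_top]
      intro hle
      exact hWQ (le_sup_right.trans hle))
    (resHom ϕ (Q ⊔ W)) hA y hKy hne
  have h2 := h1.map (Q ⊔ W).subtype (Subgroup.subtype_injective _)
  rw [Subgroup.map_subgroupOf_eq_of_le le_sup_right] at h2
  obtain ⟨y, -, h3⟩ := h2
  exact ⟨y, Subgroup.mem_top _, h3⟩

end Cfsg.Agent.Lib.Helper39
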