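import Cfsg.Agent.Lib.Helper39.TransferStep

set_option autoImplicit false

namespace Cfsg.Agent.Lib.Helper39

/-- iterated commutators with `z` eventually vanish in a nilpotent group -/
theorem exists_iterate_dl_eq_one {P : Type*} [Group P] [hP : Group.IsNilpotent P] (z : P) :
    ∃ n : ℕ, ∀ y : P, (dl z)^[n] y = 1 := by
  obtain ⟨n, hn⟩ := Subgroup.nilpotent_iff_lowerCentralSeries.mp hP
  refine ⟨n, fun y => ?_⟩
  have h : ∀ k : ℕ, (dl z)^[k] y ∈ Subgroup.lowerCentralSeries (⊤ : Subgroup P) k := by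
    intro k
    induction k with
    | zero => exact Subgroup.mem_top _
    | succ k ih =>
      rw [Function.iterate_succ_apply', Subgroup.lowerCentralSeries_succ]
      have := Subgroup.commutator_mem_commutator (Subgroup.inv_mem _ ih)
        (Subgroup.mem_top z⁻¹)
      rw [commutatorElement_def, inv_inv, inv_inv] at this
      exact this
  have := h n
  rwa [hn, Subgroup.mem_bot] at this

theorem mul_card_le_of_lt {P : Type*} [Group P] [Finite P] {p : ℕ} [hp : Fact p.Prime]
    (hP : IsPGroup p P) {H K : Subgroup P} (h : H < K) : p * Nat.card H ≤ Nat.card K := by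
  obtain ⟨r, hr⟩ := Subgroup.card_dvd_of_le h.le
  obtain ⟨a, ha⟩ := IsPGroup.iff_card.mp (hP.to_subgroup K)
  have hr1 : r ≠ 1 := by
    rintro rfl
    rw [mul_one] at hr
    exact h.ne (Subgroup.eq_of_le_of_card_ge h.le hr.le)
  have hrd : r ∣ p ^ a := by rw [← ha, hr]; exact Dvd.intro_left _ rfl
  obtain ⟨b, -, hb⟩ := (Nat.dvd_prime_pow hp.out).mp hrd
  have hb0 : b ≠ 0 := by
    rintro rfl
    exact hr1 (by rw [hb, pow_zero])
  have hpr : p ≤ r := by
    rw [hb]
    calc p = p ^ 1 := (pow_one p).symm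
      _ ≤ p ^ b := Nat.pow_le_pow_right hp.out.pos (Nat.one_le_iff_ne_zero.2 hb0)
  rw [hr, mul_comm]
  exact Nat.mul_le_mul_left _ hpr

theorem card_sylow_perm_sq (p : ℕ) [hp : Fact p.Prime] (W : Sylow p (Equiv.Perm (Fin (p ^ 2)))) :
    Nat.card W = p ^ (p + 1) := by
  rw [Sylow.card_eq_multiplicity, Nat.card_perm, Nat.card_eq_fintype_card, Fintype.card_fin,
    Nat.factorization_def _ hp.out, pow_two, padicValNat_factorial_mul]
  have h1 := padicValNat_factorial_mul (p := p) 1
  rw [mul_one] at h1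
  rw [h1]
  simp [add_comm]

section chain

variable {P : Type*} [Group P] {M : Subgroup P} [hn : M.Normal] {B : Type*} [CommGroup B]

/-- conjugation by `z⁻¹` on the normal subgroup `M` -/
noncomputable def cz (M : Subgroup P) [M.Normal] (z : P) : M →* M :=
  (MulAut.conjNormal z⁻¹ : MulAut M).toMonoidHom

theorem cz_coe (z : P) (m : M) : ((cz M z m : M) : P) = z⁻¹ * m * z := by
  show ((MulAut.conjNormal z⁻¹ : MulAut M) m : P) = _
  rw [MulAut.conjNormal_apply, inv_inv]

/-- the difference operator on homs -/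
noncomputable def Dz (z : P) (ν : M →* B) : M →* B := ν⁻¹ * ν.comp (cz M z)

theorem Dz_apply (z : P) (ν : M →* B) (m : M) : Dz z ν m = (ν m)⁻¹ * ν (cz M z m) := rfl

theorem Dz_one (z : P) : Dz z (1 : M →* B) = 1 := by
  ext m; simp [Dz_apply]

theorem Dz_iterate_apply (z : P) (l : ℕ) : ∀ (ν : M →* B) (m : P) (hm : m ∈ M),
    (Dz z)^[l] ν ⟨m, hm⟩ = ν ⟨(dl z)^[l] m, iterate_dl_mem z hm l⟩ := by
  induction l with
  | zero => intro ν m hm; rfl
  | succ l ih =>
    intro ν m hm
    rw [Function.iterate_succ_apply, ih (Dz z ν) m hm, Dz_apply, ← map_inv, ← map_mul]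
    congr 1
    apply Subtype.ext
    show ((dl z)^[l] m)⁻¹ * ((cz M z ⟨(dl z)^[l] m, _⟩ : M) : P) = (dl z)^[l + 1] m
    rw [cz_coe, Function.iterate_succ_apply']
    show _ = ((dl z)^[l] m)⁻¹ * z⁻¹ * (dl z)^[l] m * z
    group

end chain

/-- the chain estimate: if `ν ([x, z; p-1]) ≠ 1` then a normal subgroup `L` of `P` inside `ker ν`
has index at least `p ^ (p + 1)`. -/
theorem pow_mul_card_le {P : Type*} [Group P] [Finite P] {p : ℕ} [hp : Fact p.Prime]
    (hP : IsPGroup p P) {B : Type*} [CommGroup B] (M : Subgroup P) [hn : M.Normal]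
    (hM : M.index = p) (ν : M →* B) (z x : P) (hx : x ∈ M)
    (hne : ν ⟨(dl z)^[p - 1] x, iterate_dl_mem z hx _⟩ ≠ 1)
    (L : Subgroup P) [hL : L.Normal] (hLM : L ≤ M) (hLν : ∀ (m : P) (h : m ∈ L), ν ⟨m, hLM h⟩ = 1) :
    p ^ (p + 1) * Nat.card L ≤ Nat.card P := by
  classical
  have : Group.IsNilpotent P := hP.isNilpotent
  have hex : ∃ n : ℕ, (Dz z)^[n] ν = 1 := by
    obtain ⟨n, hn'⟩ := exists_iterate_dl_eq_one z
    refine ⟨n, ?_⟩
    ext m
    have := Dz_iterate_apply z n ν m.1 m.2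
    rw [show (⟨m.1, m.2⟩ : M) = m from rfl] at this
    rw [this]
    have e : (⟨(dl z)^[n] m.1, iterate_dl_mem z m.2 n⟩ : M) = 1 := Subtype.ext (hn' _)
    rw [e, map_one]; rfl
  set n0 := Nat.find hex with hn0
  have hn0s : (Dz z)^[n0] ν = 1 := Nat.find_spec hex
  have hge : ∀ l, n0 ≤ l → (Dz z)^[l] ν = 1 := by
    intro l hl
    obtain ⟨d, rfl⟩ := Nat.exists_eq_add_of_le hl
    rw [add_comm, Function.iterate_add_apply, hn0s]
    clear hl
    induction d with
    | zero => rfl
    | succ d ih => rw [Function.iterate_succ_apply', ih, Dz_one]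
  have hpn : p ≤ n0 := by
    by_contra hlt
    push Not at hlt
    have h1 := hge (p - 1) (by omega)
    apply hne
    rw [← Dz_iterate_apply z (p - 1) ν x hx, h1]; rfl
  obtain ⟨t, ht⟩ : ∃ t, n0 = t + 1 := ⟨n0 - 1, by have := hp.out.pos; omega⟩
  have htne : (Dz z)^[t] ν ≠ 1 := Nat.find_min hex (by omega)
  obtain ⟨y1, hy1⟩ : ∃ y : M, (Dz z)^[t] ν y ≠ 1 := by
    by_contra hcon
    push Not at hcon
    exact htne (by ext m; exact hcon m)
  let U : ℕ → Subgroup M := fun i => ⨅ l : {l : ℕ // i ≤ l}, ((Dz z)^[l.1] ν).ker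
  have hU : ∀ i (m : M), m ∈ U i ↔ ∀ l, i ≤ l → (Dz z)^[l] ν m = 1 := by
    intro i m
    simp only [U, Subgroup.mem_iInf, MonoidHom.mem_ker, Subtype.forall]
  have hlt : ∀ i, i ≤ t → U i < U (i + 1) := by
    intro i hi
    refine lt_of_le_of_ne ?_ ?_
    · intro m hm
      rw [hU] at hm ⊢
      exact fun l hl => hm l (by omega)
    · intro heq
      let w : M := ⟨(dl z)^[t - i] y1.1, iterate_dl_mem z y1.2 _⟩
      have hw : ∀ l, (Dz z)^[l] ν w = (Dz z)^[l + (t - i)] ν y1 := by
        intro l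
        have h1 := Dz_iterate_apply z l ν _ w.2
        have h2 := Dz_iterate_apply z (l + (t - i)) ν _ y1.2
        rw [show (⟨w.1, w.2⟩ : M) = w from rfl] at h1
        rw [show (⟨y1.1, y1.2⟩ : M) = y1 from rfl] at h2
        rw [h1, h2]
        congr 1
        apply Subtype.ext
        show (dl z)^[l] ((dl z)^[t - i] y1.1) = _
        rw [← Function.iterate_add_apply]
      have hw1 : w ∈ U (i + 1) := by
        rw [hU]
        intro l hl
        rw [hw, hge _ (by omega)]; rfl
      rw [← heq, hU] at hw1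
      have := hw1 i le_rfl
      rw [hw, show i + (t - i) = t by omega] at this
      exact hy1 this
  have hMp : IsPGroup p M := hP.to_subgroup M
  have hcard : ∀ i, i ≤ t + 1 → p ^ i * Nat.card (U 0) ≤ Nat.card (U i) := by
    intro i
    induction i with
    | zero => intro _; simp
    | succ i ih =>
      intro hi
      have h1 := mul_card_le_of_lt hMp (hlt i (by omega))
      calc p ^ (i + 1) * Nat.card (U 0) = p * (p ^ i * Nat.card (U 0)) := by ring
        _ ≤ p * Nat.card (U i) := Nat.mul_le_mul_left _ (ih (by omega))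
        _ ≤ _ := h1
  have hLU : L.subgroupOf M ≤ U 0 := by
    intro m hm
    rw [hU]
    intro l _
    have h1 := Dz_iterate_apply z l ν m.1 m.2
    rw [show (⟨m.1, m.2⟩ : M) = m from rfl] at h1
    rw [h1]
    exact hLν _ (iterate_dl_mem z hm l)
  have h1 : Nat.card L ≤ Nat.card (U 0) := by
    rw [← Nat.card_congr (Subgroup.subgroupOfEquivOfLe hLM).toEquiv]
    exact Subgroup.card_le_of_le hLU
  have h2 : Nat.card (U (t + 1)) ≤ Nat.card M := Subgroup.card_le_card_group _
  have h3 : Nat.card P = Nat.card M * p := by rw [← hM]; exact (Subgroup.card_mul_index M).symm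
  have h4 := hcard (t + 1) le_rfl
  have h5 : p ^ p ≤ p ^ (t + 1) := Nat.pow_le_pow_right hp.out.pos (by omega)
  calc p ^ (p + 1) * Nat.card L = (p ^ p * Nat.card L) * p := by ring
    _ ≤ (p ^ (t + 1) * Nat.card (U 0)) * p :=
        Nat.mul_le_mul_right _ (Nat.mul_le_mul h5 h1)
    _ ≤ Nat.card M * p := Nat.mul_le_mul_right _ (h4.trans h2)
    _ = Nat.card P := h3.symm

/-- a hom of exponent `p` on a subgroup can be replaced by one with kernel of index `p`. -/
theorem exists_hom_index_ker {M : Type*} [Group M] {p : ℕ} [hp : Fact p.Prime] {A : Type*}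
    [CommGroup A] [Finite A] (hA : ∀ a : A, a ^ p = 1) (ν : M →* A) (w : M) (hw : ν w ≠ 1) :
    ∃ ν' : M →* ℂˣ, ν' w ≠ 1 ∧ ν'.ker.index = p ∧ ν.ker ≤ ν'.ker := by
  obtain ⟨χ, hχ⟩ := CommGroup.exists_apply_ne_one_of_hasEnoughRootsOfUnity A ℂ hw
  refine ⟨χ.comp ν, hχ, ?_, ?_⟩
  · rw [Subgroup.index_ker]
    have hle : (χ.comp ν).range ≤ rootsOfUnity p ℂ := by
      rintro _ ⟨m, rfl⟩
      rw [mem_rootsOfUnity]
      show (χ (ν m)) ^ p = 1
      rw [← map_pow, hA, map_one]
    have hdvd : Nat.card (χ.comp ν).range ∣ p := by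
      have hz : NeZero p := ⟨hp.out.ne_zero⟩
      have h3 := Subgroup.card_dvd_of_le hle
      rwa [Complex.card_rootsOfUnity] at h3
    have hne1 : Nat.card (χ.comp ν).range ≠ 1 := by
      intro h
      rw [Subgroup.card_eq_one] at h
      apply hχ
      have h2 : (χ.comp ν) w ∈ (χ.comp ν).range := ⟨_, rfl⟩
      rw [h, Subgroup.mem_bot] at h2
      exact h2
    exact ((Nat.dvd_prime hp.out).1 hdvd).resolve_left hne1
  · intro m hm
    show χ (ν m) = 1
    rw [MonoidHom.mem_ker.1 hm, map_one]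

/-- **The wreath product lemma.** -/
theorem exists_surj_sylow_perm {P : Type*} [Group P] [Finite P] {p : ℕ} [hp : Fact p.Prime]
    (hP : IsPGroup p P) {A : Type*} [CommGroup A] [Finite A] (hA : ∀ a : A, a ^ p = 1)
    (M : Subgroup P) [hn : M.Normal] (hM : M.index = p) (ν : M →* A) (z x : P) (hx : x ∈ M)
    (hne : ν ⟨(dl z)^[p - 1] x, iterate_dl_mem z hx _⟩ ≠ 1) :
    ∃ (W : Sylow p (Equiv.Perm (Fin (p ^ 2))))
      (f : P →* ↥(W : Subgroup (Equiv.Perm (Fin (p ^ 2))))), Function.Surjective f := by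
  obtain ⟨ν', hne', hKidx, -⟩ := exists_hom_index_ker hA ν _ hne
  set K : Subgroup M := ν'.ker with hK
  set K' : Subgroup P := K.map M.subtype with hK'
  have hK'idx : K'.index = p ^ 2 := by rw [hK', Subgroup.index_map_subtype, hKidx, hM, pow_two]
  set L := K'.normalCore with hL
  have hLK : L ≤ K' := Subgroup.normalCore_le K'
  have hLM : L ≤ M := hLK.trans (Subgroup.map_subtype_le K)
  have hLν : ∀ (m : P) (h : m ∈ L), ν' ⟨m, hLM h⟩ = 1 := by
    intro m h
    obtain ⟨k, hk, rfl⟩ := hLK h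
    exact hk
  have hcard := pow_mul_card_le hP M hM ν' z x hx hne' L hLM hLν
  let e : (P ⧸ K') ≃ Fin (p ^ 2) := Finite.equivFinOfCardEq hK'idx
  let f0 : P →* Equiv.Perm (Fin (p ^ 2)) :=
    (Equiv.permCongrHom e).toMonoidHom.comp (MulAction.toPermHom P (P ⧸ K'))
  have hker : f0.ker = L := by
    rw [hL, Subgroup.normalCore_eq_ker]
    ext g
    rw [MonoidHom.mem_ker, MonoidHom.mem_ker]
    show (Equiv.permCongrHom e) (MulAction.toPermHom P (P ⧸ K') g) = 1 ↔ _
    rw [map_eq_one_iff _ (Equiv.permCongrHom e).injective]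
  have hrp : IsPGroup p f0.range := hP.of_surjective f0.rangeRestrict f0.rangeRestrict_surjective
  obtain ⟨W, hW⟩ := hrp.exists_le_sylow
  have hcr : Nat.card f0.range = L.index := by rw [← hker, Subgroup.index_ker]
  have heq : f0.range = W := by
    apply Subgroup.eq_of_le_of_card_ge hW
    rw [card_sylow_perm_sq, hcr]
    have h1 := Subgroup.card_mul_index L
    rw [← h1, mul_comm] at hcard
    exact Nat.le_of_mul_le_mul_left hcard Nat.card_pos
  refine ⟨W, f0.codRestrict W (fun g => hW ⟨g, rfl⟩), ?_⟩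
  intro w
  have hw : (w : Equiv.Perm (Fin (p ^ 2))) ∈ f0.range := by rw [heq]; exact w.2
  obtain ⟨g, hg⟩ := hw
  exact ⟨g, Subtype.ext hg⟩

end Cfsg.Agent.Lib.Helper39
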