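import Cfsg.Agent.Lib.Helper39.YoshidaCore
import Cfsg.Agent.Lib.Helper3.PGroup

/-!
# Yoshida: proper subgroups contribute trivially unless `C_p ≀ C_p` is a quotient
-/

set_option autoImplicit false

namespace Cfsg.Agent.Lib.Helper39

theorem yoshida_bad {P : Type*} [Group P] [Finite P] {p : ℕ} [hp : Fact p.Prime]
    (hP : IsPGroup p P)
    (hno : ¬ ∃ (W : Sylow p (Equiv.Perm (Fin (p ^ 2))))
      (f : P →* ↥(W : Subgroup (Equiv.Perm (Fin (p ^ 2))))), Function.Surjective f)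
    {Q : Subgroup P} (hQ : Q ≠ ⊤) {A : Type*} [CommGroup A] [Finite A] (ϕ : Q →* A)
    (hA : ∀ a : A, a ^ p = 1) (x : P) (hK : KillH p ϕ x) : MonoidHom.transfer ϕ x = 1 := by
  by_contra hne
  obtain ⟨M, hM, hQM⟩ := (eq_top_or_exists_le_coatom Q).resolve_left hQ
  have hn : M.Normal := Helper3.coatom_normal hP hM
  have hidx : M.index = p := Helper3.coatom_index hP hM
  obtain ⟨z, -, hz⟩ := SetLike.exists_of_lt (lt_top_iff_ne_top.2 hM.1)
  obtain ⟨hx, h1⟩ := exists_of_transfer_ne_one hidx hQM ϕ hA x hK z hz hne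
  exact hno (exists_surj_sylow_perm hP hA M hidx _ z x hx h1)

end Cfsg.Agent.Lib.Helper39
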