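import Cfsg.Agent.Lib.Helper39.WreathQuot
import Cfsg.Agent.Lib.Helper90.Biset.Transfer

set_option autoImplicit false

namespace Cfsg.Agent.Lib.Helper39

open Cfsg.Agent.Lib.Helper90 Cfsg.Agent.Lib.Helper40
open scoped commutatorElement

universe u

/-- the label map onto the abelian quotient `P / X P'` -/
noncomputable def labOf {P : Type u} [Group P] (X : Subgroup P) :
    P →* (Abelianization P ⧸ X.map Abelianization.of) :=
  (QuotientGroup.mk' _).comp Abelianization.of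

theorem labOf_surjective {P : Type u} [Group P] (X : Subgroup P) :
    Function.Surjective (labOf X) :=
  (QuotientGroup.mk'_surjective _).comp (QuotientGroup.mk_surjective (s := commutator P))

theorem labOf_eq_one_iff {P : Type u} [Group P] {X : Subgroup P} (hX : commutator P ≤ X) (y : P) :
    labOf X y = 1 ↔ y ∈ X := by
  show ((Abelianization.of y : Abelianization P) : Abelianization P ⧸ X.map Abelianization.of) = 1
    ↔ _
  rw [QuotientGroup.eq_one_iff]
  constructor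
  · rintro ⟨x, hx, hxy⟩
    have h1 : x⁻¹ * y ∈ commutator P := by
      rw [← Abelianization.ker_of, MonoidHom.mem_ker, map_mul, map_inv, hxy, inv_mul_cancel]
    have e : y = x * (x⁻¹ * y) := by group
    rw [e]; exact X.mul_mem hx (hX h1)
  · intro hy; exact ⟨y, hy, rfl⟩

theorem cyc_map {G A A' : Type*} [Group G] [Finite G] [CommGroup A] [CommGroup A'] (f : A →* A')
    (Q : Subgroup G) (ψ : G → A) (y : G) : f (Cyc.cyc Q ψ y) = Cyc.cyc Q (f ∘ ψ) y := by
  unfold Cyc.cyc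
  rw [map_prod]
  rfl

theorem normal_of_commutator_le {P : Type*} [Group P] {X : Subgroup P} (hX : commutator P ≤ X) :
    X.Normal := by
  constructor
  intro y hy g
  have h1 : ⁅g, y⁆ ∈ commutator P :=
    Subgroup.commutator_mem_commutator (Subgroup.mem_top g) (Subgroup.mem_top y)
  have e : g * y * g⁻¹ = ⁅g, y⁆ * y := by rw [commutatorElement_def]; group
  rw [e]; exact X.mul_mem (hX h1) hy

/-- cycle product of a label which does not see `ψ`. -/
theorem cyc_eq_pow_of_lab {P A : Type*} [Group P] [Finite P] [CommGroup A] (Q : Subgroup P)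
    (ψ : P → P) (lab : P →* A) (h : ∀ r ∈ Q, lab (ψ r) = lab r) (y : P) :
    Cyc.cyc Q (lab ∘ ψ) y = lab y ^ Q.index := by
  apply cyc_eq_pow
  intro k u hu
  show lab (ψ _) = _
  rw [h _ hu, map_mul, map_mul, map_inv, map_pow, mul_comm, mul_inv_cancel_left]

/-- a subgroup of a finite abelian `p`-group all of whose elements are `p`-th powers inside it is
trivial. -/
theorem eq_one_of_forall_pow {A : Type*} [CommGroup A] [Finite A] {p : ℕ} [Fact p.Prime]
    (hA : IsPGroup p A) (B : Subgroup A) (h : ∀ b ∈ B, ∃ b' ∈ B, b = b' ^ p) :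
    ∀ b ∈ B, b = 1 := by
  obtain ⟨k, hk⟩ := IsPGroup.iff_card.mp hA
  have h2 : ∀ j : ℕ, ∀ b ∈ B, ∃ b' ∈ B, b = b' ^ (p ^ j) := by
    intro j
    induction j with
    | zero => intro b hb; exact ⟨b, hb, by simp⟩
    | succ j ih =>
      intro b hb
      obtain ⟨b1, hb1, e1⟩ := ih b hb
      obtain ⟨b2, hb2, e2⟩ := h b1 hb1
      exact ⟨b2, hb2, by rw [e1, e2, ← pow_mul, pow_succ']⟩
  intro b hb
  obtain ⟨b', -, e⟩ := h2 k b hb
  rw [e, ← hk, pow_card_eq_one']

/-- **Abstract control of transfer.** -/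
theorem transfer_core {P : Type u} [Group P] [Finite P] {p : ℕ} [hp : Fact p.Prime]
    (hP : IsPGroup p P) {ι : Type*} [Fintype ι] (Q : ι → Subgroup P) (ψ : ι → P → P) (c : ι → ℕ)
    (hmul : ∀ i, c i ≠ 0 → ∀ r ∈ Q i, ∀ r' ∈ Q i, ψ i (r * r') = ψ i r * ψ i r')
    (𝔉 𝔑 : Subgroup P) (hNF : 𝔑 ≤ 𝔉) (hcomm : commutator P ≤ 𝔑)
    (hfus : ∀ i, c i ≠ 0 → ∀ r ∈ Q i, r⁻¹ * ψ i r ∈ 𝔉)
    (hdeg : ¬ p ∣ ∑ i, c i * (Q i).index)
    (hstab : ∀ (A : Type u) [CommGroup A] [Finite A] (lab : P →* A), ∀ x ∈ 𝔉,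
      ∏ i, Cyc.cyc (Q i) (lab ∘ ψ i) x ^ c i = 1)
    (hgb : ∀ i, c i ≠ 0 → (∀ r ∈ Q i, r⁻¹ * ψ i r ∈ 𝔑) ∨
      (Q i ≠ ⊤ ∧ ∀ (A : Type u) [CommGroup A] [Finite A] (ϕ : Q i →* A), (∀ a : A, a ^ p = 1) →
        ∀ x : P, KillH p ϕ x → MonoidHom.transfer ϕ x = 1)) :
    𝔉 = 𝔑 := by
  classical
  by_contra hne
  have hcF : commutator P ≤ 𝔉 := hcomm.trans hNF
  have hFn : 𝔉.Normal := normal_of_commutator_le hcF
  set n := ∑ i, c i * (Q i).index with hn
  set lab0 := labOf 𝔑 with hlab0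
  set lab1 := labOf 𝔉 with hlab1
  have h0 : ∀ y, lab0 y = 1 ↔ y ∈ 𝔑 := labOf_eq_one_iff hcomm
  have h1 : ∀ y, lab1 y = 1 ↔ y ∈ 𝔉 := labOf_eq_one_iff hcF
  let π : (Abelianization P ⧸ 𝔑.map Abelianization.of) →*
      (Abelianization P ⧸ 𝔉.map Abelianization.of) :=
    QuotientGroup.map _ _ (MonoidHom.id _) (by
      intro a ha
      exact Subgroup.map_mono hNF ha)
  have hπ : ∀ y, π (lab0 y) = lab1 y := fun y => rfl
  obtain ⟨τ0, hτ0⟩ := Cyc.exists_hom_cyc Q (fun i => lab0 ∘ ψ i) c (by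
    intro i hi r hr r' hr'
    show lab0 (ψ i (r * r')) = lab0 (ψ i r) * lab0 (ψ i r')
    rw [hmul i hi r hr r' hr', map_mul])
  have hπτ : ∀ y, π (τ0 y) = lab1 y ^ n := by
    intro y
    rw [hτ0, map_prod, hn, ← Finset.prod_pow_eq_pow_sum]
    apply Finset.prod_congr rfl
    intro i _
    by_cases hi : c i = 0
    · rw [hi, pow_zero, zero_mul, pow_zero, map_one]
    rw [map_pow, cyc_map, mul_comm (c i), pow_mul]
    congr 1
    have e : (π ∘ (lab0 ∘ ψ i)) = lab1 ∘ ψ i := rfl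
    rw [e]
    apply cyc_eq_pow_of_lab
    intro r hr
    have h2 := (h1 _).2 (hfus i hi r hr)
    rw [map_mul, map_inv, inv_mul_eq_one] at h2
    exact h2.symm
  have hA0 : IsPGroup p (Abelianization P ⧸ 𝔑.map Abelianization.of) :=
    hP.of_surjective lab0 (labOf_surjective 𝔑)
  set E : Subgroup P := (powMonoidHom p : (Abelianization P ⧸ 𝔑.map Abelianization.of) →* _).range.comap
    lab0 with hE
  have hEmem : ∀ y, y ∈ E ↔ ∃ z : P, lab0 y = lab0 z ^ p := by
    intro y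
    constructor
    · rintro ⟨a, ha⟩
      obtain ⟨z, rfl⟩ := labOf_surjective 𝔑 a
      exact ⟨z, ha.symm⟩
    · rintro ⟨z, hz⟩
      exact ⟨lab0 z, hz.symm⟩
  have hNE : 𝔑 ≤ E := by
    intro y hy
    rw [hEmem]
    exact ⟨1, by rw [(h0 y).2 hy, map_one, one_pow]⟩
  have hcop : Nat.Coprime n p := ((Nat.Prime.coprime_iff_not_dvd hp.out).2 hdeg).symm
  -- Step 1
  have hFE : ¬ 𝔉 ≤ E := by
    intro hFE
    apply hne
    apply le_antisymm _ hNF
    have key := eq_one_of_forall_pow hA0 (𝔉.map lab0) (by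
      rintro _ ⟨y, hy, rfl⟩
      obtain ⟨z, hz⟩ := (hEmem y).1 (hFE hy)
      have hzp : z ^ p ∈ 𝔉 := by
        have h2 : y⁻¹ * z ^ p ∈ 𝔑 := by
          rw [← h0, map_mul, map_inv, map_pow, hz, inv_mul_cancel]
        have e : z ^ p = y * (y⁻¹ * z ^ p) := by group
        rw [e]; exact 𝔉.mul_mem hy (hNF h2)
      have hτz : τ0 z ^ p = 1 := by
        rw [← map_pow, hτ0]; exact hstab _ lab0 _ hzp
      obtain ⟨t, ht⟩ := labOf_surjective 𝔑 (τ0 z * (lab0 z ^ n)⁻¹)
      have htF : t ∈ 𝔉 := by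
        rw [← h1, ← hπ, ht, map_mul, map_inv, map_pow, hπτ, hπ, mul_inv_cancel]
      have e1 : τ0 z = lab0 t * lab0 z ^ n := by
        rw [ht, inv_mul_cancel_right]
      have e2 : lab0 t ^ p * lab0 y ^ n = 1 := by
        rw [hz, ← pow_mul, mul_comm p n, pow_mul, ← mul_pow, ← e1, hτz]
      have e3 : lab0 y ^ n = (lab0 t⁻¹) ^ p := by
        rw [map_inv, inv_pow]; exact eq_inv_of_mul_eq_one_right e2
      have hb := Nat.gcd_eq_gcd_ab n p
      rw [hcop.gcd_eq_one] at hb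
      refine ⟨lab0 (t⁻¹ ^ (n.gcdA p) * y ^ (n.gcdB p)),
        ⟨_, 𝔉.mul_mem (𝔉.zpow_mem (𝔉.inv_mem htF) _) (𝔉.zpow_mem hy _), rfl⟩, ?_⟩
      rw [map_mul, map_zpow, map_zpow, mul_pow]
      have e4 : lab0 y = lab0 y ^ ((n : ℤ) * n.gcdA p + (p : ℤ) * n.gcdB p) := by
        rw [← hb]; simp
      conv_lhs => rw [e4]
      rw [zpow_add, zpow_mul, zpow_natCast, e3, zpow_mul, zpow_natCast]
      congr 1
      · rw [← zpow_natCast, ← zpow_natCast, ← zpow_mul, ← zpow_mul, mul_comm]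
      · rw [← zpow_natCast, ← zpow_natCast, ← zpow_mul, ← zpow_mul, mul_comm])
    intro y hy
    exact (h0 y).1 (key _ ⟨y, hy, rfl⟩)
  -- Step 2
  have hcE : commutator P ≤ E := hcomm.trans hNE
  set lab2 := labOf E with hlab2
  have h2 : ∀ y, lab2 y = 1 ↔ y ∈ E := labOf_eq_one_iff hcE
  have hA2 : ∀ a : (Abelianization P ⧸ E.map Abelianization.of), a ^ p = 1 := by
    intro a
    obtain ⟨y, rfl⟩ := labOf_surjective E a
    rw [← map_pow, h2, hEmem]
    exact ⟨y, map_pow _ _ _⟩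
  obtain ⟨x0, hx0F, hx0E⟩ := SetLike.not_le_iff_exists.1 hFE
  obtain ⟨x, ⟨hxF, hxE⟩, hmin⟩ := WellFounded.has_min (measure (orderOf : P → ℕ)).wf
    {y | y ∈ 𝔉 ∧ y ∉ E} ⟨x0, hx0F, hx0E⟩
  have hmin' : ∀ y ∈ 𝔉, orderOf y < orderOf x → y ∈ E := by
    intro y hy hlt
    by_contra hyE
    exact hmin y ⟨hy, hyE⟩ hlt
  obtain ⟨e, he⟩ := IsPGroup.iff_orderOf.mp hP x
  have he0 : e ≠ 0 := by
    rintro rfl
    rw [pow_zero, orderOf_eq_one_iff] at he
    exact hxE (he ▸ E.one_mem)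
  obtain ⟨e', rfl⟩ := Nat.exists_eq_succ_of_ne_zero he0
  -- the homs
  have hkill : ∀ i (hi : c i ≠ 0), KillH p (MonoidHom.mk' (fun r : Q i => lab2 (ψ i r))
      (fun r r' => by
        show lab2 (ψ i ((r : P) * (r' : P))) = _
        rw [hmul i hi r r.2 r' r'.2, map_mul])) x := by
    intro i hi r u k hk hr
    show lab2 (ψ i r) = 1
    rw [h2]
    apply hmin'
    · have hrF : (r : P) ∈ 𝔉 := by
        rw [hr]
        have := hFn.conj_mem _ (𝔉.pow_mem hxF k) u⁻¹
        rwa [inv_inv] at this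
      have e1 : ψ i r = r * ((r : P)⁻¹ * ψ i r) := by group
      rw [e1]; exact 𝔉.mul_mem hrF (hfus i hi r r.2)
    · let Ψ : Q i →* P := MonoidHom.mk' (fun r : Q i => ψ i r)
        (fun r r' => hmul i hi r r.2 r' r'.2)
      have h3 : orderOf (Ψ r) ∣ orderOf r := orderOf_map_dvd Ψ r
      have h4 : orderOf r ∣ p ^ e' := by
        rw [← Subgroup.orderOf_coe, hr]
        apply orderOf_dvd_of_pow_eq_one
        rw [inv_conj_pow, ← pow_mul]
        obtain ⟨k', rfl⟩ := hk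
        have : p * k' * p ^ e' = p ^ (e' + 1) * k' := by ring
        rw [this, pow_mul, ← he, pow_orderOf_eq_one, one_pow]
        group
      have h5 : orderOf (ψ i r) ≤ p ^ e' :=
        Nat.le_of_dvd (pow_pos hp.out.pos _) (h3.trans h4)
      rw [he]
      exact lt_of_le_of_lt h5 (Nat.pow_lt_pow_right hp.out.one_lt (Nat.lt_succ_self _))
  -- evaluation
  let good : ι → Prop := fun i => ∀ r ∈ Q i, r⁻¹ * ψ i r ∈ 𝔑
  let g : ι → ℕ := fun i => if good i then c i * (Q i).index else 0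
  have hterm : ∀ i, Cyc.cyc (Q i) (lab2 ∘ ψ i) x ^ c i = lab2 x ^ g i := by
    intro i
    by_cases hi : c i = 0
    · have : g i = 0 := by
        show (if good i then c i * (Q i).index else 0) = 0
        rw [hi, zero_mul, ite_self]
      rw [hi, this, pow_zero, pow_zero]
    by_cases hg : good i
    · have : g i = c i * (Q i).index := if_pos hg
      rw [this, mul_comm, pow_mul]
      congr 1
      apply cyc_eq_pow_of_lab
      intro r hr
      have h3 := (h2 _).2 (hNE (hg r hr))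
      rw [map_mul, map_inv, inv_mul_eq_one] at h3
      exact h3.symm
    · have : g i = 0 := if_neg hg
      rw [this, pow_zero]
      obtain ⟨-, hbad⟩ := (hgb i hi).resolve_left hg
      have h3 := hbad _ _ hA2 x (hkill i hi)
      rw [Cyc.transfer_eq_cyc (Q i) _ (lab2 ∘ ψ i) (fun _ _ => rfl) x] at h3
      rw [h3, one_pow]
  have hdiv : ∀ i, ∃ d, c i * (Q i).index = g i + p * d := by
    intro i
    by_cases hg : good i
    · exact ⟨0, by rw [show g i = c i * (Q i).index from if_pos hg]; simp⟩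
    · rw [show g i = 0 from if_neg hg]
      by_cases hi : c i = 0
      · exact ⟨0, by rw [hi]; simp⟩
      obtain ⟨htop, -⟩ := (hgb i hi).resolve_left hg
      obtain ⟨k, hk⟩ := hP.index (Q i)
      have hk0 : k ≠ 0 := by
        rintro rfl
        rw [pow_zero, Subgroup.index_eq_one] at hk
        exact htop hk
      obtain ⟨k', rfl⟩ := Nat.exists_eq_succ_of_ne_zero hk0
      exact ⟨c i * p ^ k', by rw [hk, pow_succ]; ring⟩
  choose d hd using hdiv
  have hm : ¬ p ∣ ∑ i, g i := by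
    intro hdvd
    apply hdeg
    rw [hn, Finset.sum_congr rfl (fun i _ => hd i), Finset.sum_add_distrib, ← Finset.mul_sum]
    exact dvd_add hdvd (Dvd.intro _ rfl)
  have hfin := hstab _ lab2 x hxF
  rw [Finset.prod_congr rfl (fun i _ => hterm i), Finset.prod_pow_eq_pow_sum] at hfin
  have h6 := orderOf_dvd_of_pow_eq_one hfin
  have h7 := orderOf_dvd_of_pow_eq_one (hA2 (lab2 x))
  have h8 : orderOf (lab2 x) = 1 :=
    Nat.eq_one_of_dvd_coprimes ((Nat.Prime.coprime_iff_not_dvd hp.out).2 hm) h7 h6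
  exact hxE ((h2 x).1 (orderOf_eq_one_iff.1 h8))

end Cfsg.Agent.Lib.Helper39
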